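import Cfsg.Agent.Lib.Sz.ExcT
import Cfsg.Agent.Lib.Sz.Local
import Cfsg.Agent.Lib.Sz.Weights

/-! # The character degrees of the Suzuki groups -/

set_option autoImplicit false

namespace Cfsg.Lib.Sz

open Cfsg.Lib.PF Cfsg.Lib.Char
open scoped ComplexConjugate Classical

variable {F : Type*} [Field F] [Finite F] {G : Type*} [Group G] [Finite G]

theorem exists_re {χ : G → ℂ} (h : IsChar ⊤ χ) {x : G} (hx : x ^ 4 = 1) : ∃ P : ℤ, χ x + χ x⁻¹ = 2 * P := by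
  obtain ⟨n, ε, -, h1, h2⟩ := h.exists_eigenvalues (Subgroup.mem_top x)
  have e : ∀ i, ∃ P : ℤ, ε i ^ 1 + ε i ^ 3 = 2 * P := fun i => by
    obtain ⟨k, hk⟩ := orderOf_dvd_of_pow_eq_one hx
    have h4 : ε i ^ 4 = 1 := by rw [hk, pow_mul, h1, one_pow]
    have : (ε i - 1) * ((ε i + 1) * (ε i ^ 2 + 1)) = 0 := by linear_combination h4
    rcases mul_eq_zero.1 this with a | a
    · exact ⟨1, by rw [sub_eq_zero.1 a]; norm_num⟩
    rcases mul_eq_zero.1 a with a | a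
    · exact ⟨-1, by rw [eq_neg_of_add_eq_zero_left a]; norm_num⟩
    · exact ⟨0, by push_cast; linear_combination ε i * a⟩
  choose P hP using e
  refine ⟨∑ i, P i, ?_⟩
  rw [inv_eq_of_mul_eq_one_right ((pow_succ' x 3).symm.trans hx), h2, (congrArg χ (pow_one x)).symm.trans (h2 1),
    ← Finset.sum_add_distrib]
  simp only [hP, Int.cast_sum, Finset.mul_sum]

theorem sum_diff {A B : Subgroup G} (h : B ≤ A) {f : G → ℂ} {c : ℂ} (hf : ∀ x ∈ A, x ∉ B → f x = c) :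
    ∑ x ∈ fs (A : Set G), f x = ∑ x ∈ fs (B : Set G), f x + (Nat.card A - Nat.card B) * c := by
  have := sum_fs_diff (A := (A : Set G)) h fun _ => c
  rw [← sum_fs_diff (A := (A : Set G)) h, sum_fs_congr (g := fun _ => c) fun x hx => hf x hx.1 hx.2]
  simp only [Finset.sum_const, card_fs_subgroup, nsmul_eq_mul] at this ⊢
  linear_combination this

theorem arith {ι : Type*} [Fintype ι] [DecidableEq ι] {X : ι → ℕ} {P d s : ι → ℤ} {k q l : ℤ} (hQ : 2 * k ^ 2 = q) (hl : k = 2 * l)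
    (l0 : 0 < l) (X0 : ∀ χ, (0 : ℤ) < X χ) (eX : ∀ χ, (X χ : ℤ) = d χ + (q ^ 2 - 1) * (d χ - P χ) + (q - 1) * k * s χ)
    (v1 : ∀ χ, q + 2 * k + 1 ∣ X χ - (2 * P χ - d χ + s χ)) (v2 : ∀ χ, q - 2 * k + 1 ∣ X χ - (2 * P χ - d χ - s χ))
    (s0 : ∑ χ, d χ * d χ = 2 * (q - 1)) (s1 : ∑ χ, (2 * P χ - d χ + s χ) * (2 * P χ - d χ + s χ) = 4 * (q + 2 * k + 1))
    (s2 : ∑ χ, (2 * P χ - d χ - s χ) * (2 * P χ - d χ - s χ) = 4 * (q - 2 * k + 1)) {E0 E1 E2 : Finset ι}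
    (e0 : ∑ χ ∈ E0ᶜ, d χ ^ 2 = ((2 : ℕ) : ℤ)) (e1 : ∑ χ ∈ E1ᶜ, (2 * P χ - d χ + s χ) ^ 2 = ((4 : ℕ) : ℤ))
    (e2 : ∑ χ ∈ E2ᶜ, (2 * P χ - d χ - s χ) ^ 2 = ((4 : ℕ) : ℤ))
    (a0 : ∀ χ ∈ E0, d χ ^ 2 = ((2 : ℕ) : ℤ) ^ 2 ∧ 2 * P χ - d χ + s χ = 0 ∧ 2 * P χ - d χ - s χ = 0)
    (a1 : ∀ χ ∈ E1, (2 * P χ - d χ + s χ) ^ 2 = ((4 : ℕ) : ℤ) ^ 2 ∧ d χ = 0 ∧ 2 * P χ - d χ - s χ = 0)
    (a2 : ∀ χ ∈ E2, (2 * P χ - d χ - s χ) ^ 2 = ((4 : ℕ) : ℤ) ^ 2 ∧ d χ = 0 ∧ 2 * P χ - d χ + s χ = 0)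
    {χ₀ : ι} (x2 : P χ₀ = 1) (x4 : s χ₀ = 0) (x5 : d χ₀ = 1) :
    (∃ χ, (X χ : ℤ) = q ^ 2 + 1) ∧ (∃ χ, X χ = (q - 1) * (q - 2 * k + 1)) ∧ (∃ χ, X χ = (q - 1) * (q + 2 * k + 1)) ∧
    (∃ χ, 2 * (q - 1) ∣ X χ) ∧ ∀ χ (r : ℕ), r.Prime → (r : ℤ) ∣ q ^ 2 + 1 → r ∣ X χ → ¬ 2 ∣ X χ := by
  have p0 : 0 < q - 2 * k := by nlinarith
  have p1 := mul_pos (show 0 < q - 1 by omega) (show 0 < q - 2 * k + 1 by omega)
  have p2 := mul_pos (show 0 < q - 1 by omega) (show 0 < q + 2 * k + 1 by omega)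
  have p3 := sq_nonneg q
  have sm : ∀ {E : Finset (ι)} {c : ι → ℤ} {w : ℕ}, ∑ χ ∈ Eᶜ, c χ ^ 2 = w → w ≤ 4 → c χ₀ = 1 →
      χ₀ ∉ E → ∀ χ ∉ E, -1 ≤ c χ ∧ c χ ≤ 1 := fun {E c w} h h4 h1 h0 χ hχ => by
    by_cases e : χ = χ₀
    · rw [e, h1]; decide
    have := Finset.add_le_sum (f := fun χ => c χ ^ 2) (fun _ _ => sq_nonneg _) (Finset.mem_compl.2 hχ)
      (Finset.mem_compl.2 h0) e
    rw [h, h1] at this
    exact abs_le.1 (Int.le_of_lt_add_one (abs_lt_of_sq_lt_sq (by omega) (by decide)))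
  have m0 := sm e0 (by decide) x5 fun h => by simpa [x2, x4, x5] using (a0 _ h).2.1
  have m1 := sm e1 le_rfl (by simp [x2, x4, x5]) fun h => by simpa [x5] using (a1 _ h).2.1
  have m2 := sm e2 le_rfl (by simp [x2, x4, x5]) fun h => by simpa [x5] using (a2 _ h).2.1
  have ne : ∀ {E : Finset (ι)} {c : ι → ℤ} {w : ℕ} {n : ℤ}, ∑ χ ∈ Eᶜ, c χ ^ 2 = w →
      ∑ χ, c χ * c χ = n → w < n → ∃ χ, χ ∈ E := fun {E c w n} h h1 h2 => by
    by_contra! h3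
    simp only [Finset.eq_empty_of_forall_notMem h3, Finset.compl_empty, sq] at h
    omega
  have r0 : ∀ χ ∈ E0, (X χ : ℤ) = q ^ 2 + 1 := fun χ h => by
    obtain ⟨h1, h2, h3⟩ := a0 χ h
    have := X0 χ
    rcases sq_eq_sq_iff_eq_or_eq_neg.1 h1 with e | e <;>
      rw [eX, show s χ = 0 by omega, show P χ = d χ / 2 by omega, e] at this ⊢ <;> norm_num at this ⊢ <;> linarith
  have r1 : ∀ χ ∈ E1, (X χ : ℤ) = (q - 1) * (q - 2 * k + 1) := fun χ h => by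
    obtain ⟨h1, h2, h3⟩ := a1 χ h
    have := X0 χ
    rcases sq_eq_sq_iff_eq_or_eq_neg.1 h1 with e | e
    · rw [eX, show s χ = 2 by omega, show P χ = 1 by omega, h2] at this
      linarith
    · rw [eX, show s χ = -2 by omega, show P χ = -1 by omega, h2]; ring
  have r2 : ∀ χ ∈ E2, (X χ : ℤ) = (q - 1) * (q + 2 * k + 1) := fun χ h => by
    obtain ⟨h1, h2, h3⟩ := a2 χ h
    have := X0 χ
    rcases sq_eq_sq_iff_eq_or_eq_neg.1 h1 with e | e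
    · rw [eX, show s χ = -2 by omega, show P χ = 1 by omega, h2] at this
      linarith
    · rw [eX, show s χ = 2 by omega, show P χ = -1 by omega, h2]; ring
  refine ⟨(ne e0 s0 (by omega)).imp fun χ h => r0 χ h, (ne e1 s1 (by omega)).imp
    fun χ h => r1 χ h, (ne e2 s2 (by omega)).imp fun χ h => r2 χ h, ?_, fun χ r hr h1 h2 h3 => ?_⟩
  · by_contra! h
    have : ∑ χ ∈ E1ᶜ, (2 * P χ - d χ + s χ) ^ 2 ≤ ∑ χ ∈ E0ᶜ, d χ ^ 2 := by
      rw [← Finset.sum_filter_ne_zero]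
      refine (Finset.sum_le_sum fun χ hχ => ?_).trans (Finset.sum_le_sum_of_subset_of_nonneg (fun χ hχ =>
        Finset.mem_compl.2 fun e => (Finset.mem_filter.1 hχ).2 (by rw [(a0 χ e).2.1]; rfl)) fun _ _ _ => sq_nonneg _)
      obtain ⟨h1, h2⟩ := Finset.mem_filter.1 hχ
      replace h2 := ne_zero_pow two_ne_zero h2
      have h3 := m1 χ (Finset.mem_compl.1 h1)
      have h4 := m2 χ fun e => h2 (a2 χ e).2.2
      have h5 : d χ ≠ 0 := fun e => h χ ⟨l * s χ, by rw [eX, show P χ = 0 by omega, e, hl]; ring⟩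
      exact sq_le_sq.2 ((abs_le.2 h3).trans (Int.one_le_abs h5))
    rw [e0, e1] at this
    omega
  have o : ∀ a b : ℤ, (X χ : ℤ) = 2 * a + 1 → False := fun a _ e => by omega
  have hr' := Nat.prime_iff_prime_int.1 hr
  have h2' := Int.natCast_dvd_natCast.2 h2
  by_cases i0 : χ ∈ E0
  · exact o (2 * k ^ 4) 0 (by rw [r0 χ i0, ← hQ]; ring)
  by_cases i1 : χ ∈ E1
  · exact o (2 * k ^ 4 - 2 * k ^ 3 + k - 1) 0 (by rw [r1 χ i1, ← hQ]; ring)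
  by_cases i2 : χ ∈ E2
  · exact o (2 * k ^ 4 + 2 * k ^ 3 - k - 1) 0 (by rw [r2 χ i2, ← hQ]; ring)
  have n0 := m0 χ i0
  have n1 := m1 χ i1
  have n2 := m2 χ i2
  have u : ∀ c : ℤ, -1 ≤ c ∧ c ≤ 1 → (r : ℤ) ∣ X χ - c → c = 0 := fun c h e => by
    have := (dvd_sub_right h2').1 e
    by_contra h0
    obtain rfl | rfl : c = 1 ∨ c = -1 := by omega
    · exact hr'.not_dvd_one this
    · exact hr'.not_dvd_one (dvd_neg.1 this)
  have x0 := X0 χ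
  rw [show q ^ 2 + 1 = (q + 2 * k + 1) * (q - 2 * k + 1) by rw [← hQ]; ring] at h1
  rcases hr'.dvd_or_dvd h1 with e | e
  · have := u _ n1 (e.trans (v1 χ))
    rw [eX, show s χ = 0 by omega, show P χ = 0 by omega, show d χ = 0 by omega] at x0
    simp at x0
  · have := u _ n2 (e.trans (v2 χ))
    rw [eX, show s χ = 0 by omega, show P χ = 0 by omega, show d χ = 0 by omega] at x0
    simp at x0


namespace Model
variable (M : Model F G) {m : ℕ} (hq : Nat.card F = 2 ^ (2 * m + 1))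
include hq

theorem deg_U {θ : G → ℂ} (hθ : θ ∈ Irr M.U) (hk : ¬ M.Z ≤ cfker θ) : 2 ^ m ∣ deg θ := by
  have := M.charP
  have n1 := Irr.apply_one_ne_zero hθ
  have c1 : ∀ b x, θ (M.u 0 b * x) = θ (M.u 0 b) / θ 1 * θ x := fun b x => by
    rw [div_mul_eq_mul_div, eq_div_iff n1]
    refine Irr.apply_mul_of_central hθ (M.u_mem_U _ _) ?_ x
    rintro _ ⟨a, c, rfl⟩
    rw [← M.u_zero_comm, mul_inv_cancel_right, mul_inv_cancel]
    exact one_mem _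
  let ω : F → ℂ := fun b => θ (M.u 0 b) / θ 1
  have w1 : ∀ a b, ω a * ω b = ω (a + b) := fun a b => by
    simp only [ω, ← M.u_zero_mul_u_zero, c1, mul_div_assoc]
  have w2 : ∀ a, ω a * ω a = 1 := fun a => by simp [w1, CharTwo.add_self_eq_zero, ω, n1]
  have w0 : ∀ a, ω a ≠ 0 := fun a => left_ne_zero_of_mul_eq_one (w2 a)
  obtain ⟨b, hb⟩ : ∃ b, ω b ≠ 1 := by
    by_contra! h
    refine hk ?_
    rintro _ ⟨b, rfl⟩
    exact mem_cfker.2 fun y => by rw [c1, show θ _ / θ 1 = 1 from h b, one_mul]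
  have s1 : ∀ a b, a ≠ 0 → θ (M.u a b) ≠ 0 → ∀ d, ω (a⁻¹ * M.σ d) = ω d := fun a b ha h d => by
    have h8 := M.σ_ne_zero ha
    have := CF.conj (Irr.mem_CF hθ) (M.u_mem_U (d / M.σ a) 0) (M.u a b)
    rw [M.u_conj_u, show M.u a _ = M.u 0 (a⁻¹ * M.σ d + d) * M.u a b by
      rw [M.u_mul_u, M.u_inj, map_div₀, M.σσ, map_zero]
      exact ⟨(zero_add a).symm, by field_simp; ring⟩, c1, mul_eq_right₀ h] at this
    exact mul_right_cancel₀ (w0 d) (by rw [w1, w2]; exact this)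
  obtain ⟨a, ha, h⟩ : ∃ a ≠ 0, ∀ c d, θ (M.u c d) ≠ 0 → c = 0 ∨ c = a := by
    by_cases h : ∃ a b, a ≠ 0 ∧ θ (M.u a b) ≠ 0
    · obtain ⟨a, b, h1, h2⟩ := h
      refine ⟨a, h1, fun c d h3 => or_iff_not_imp_left.2 fun h4 => inv_injective
        (eq_of_forall_char w1 w0 hb fun e => ?_)⟩
      obtain ⟨e, rfl⟩ := M.σ_surj e
      rw [s1 a b h1 h2, s1 c d h4 h3]
    · exact ⟨1, one_ne_zero, fun c d h3 => .inl (by_contra fun h4 => h ⟨c, d, h4, h3⟩)⟩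
  have e := card_mul_cfnorm M.U θ
  rw [Irr.cfnorm_eq hθ, mul_one, sum_fs_subset (B := Subgroup.centralizer {M.u a 0}) (fun g hg => by
    obtain ⟨c, d, -, rfl⟩ := (M.centralizer_u ha 0).1 hg; exact M.u_mem_U c d) (by
    rintro _ ⟨c, d, rfl⟩ hn
    rw [not_ne_iff.1 fun h3 => hn ((M.centralizer_u ha 0).2 ⟨c, d, h c d h3, rfl⟩)]
    simp)] at e
  have l := e.le.trans (Finset.sum_le_card_nsmul _ _ ((deg θ : ℝ) ^ 2) fun x _ =>
    pow_le_pow_left₀ (norm_nonneg _) ((Irr.isChar hθ).norm_le x) 2)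
  rw [card_fs_subgroup, M.card_centralizer_u ha, M.card_U, nsmul_eq_mul, hq] at l
  have := Irr.deg_dvd_card hθ
  rw [M.card_U, hq, ← pow_mul] at this
  obtain ⟨j, -, hj⟩ := (Nat.dvd_prime_pow Nat.prime_two).1 this
  rw [hj] at l ⊢
  norm_cast at l
  rw [← pow_succ', ← pow_mul, ← pow_mul, ← pow_add, Nat.pow_le_pow_iff_right one_lt_two] at l
  exact pow_dvd_pow 2 (by omega)

theorem dvd_U {θ : G → ℂ} (hθ : IsChar M.U θ) : ∃ j : ℤ, θ 1 - cfdot M.Z θ (cf1 M.Z) = 2 ^ m * j := by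
  refine hθ.induction_on (P := fun θ => ∃ j : ℤ, θ 1 - cfdot M.Z θ (cf1 M.Z) = 2 ^ m * j) ⟨0, by simp⟩
    fun ψ φ hψ _ ⟨j, hj⟩ => ?_
  rw [cfdot_add_left, Pi.add_apply]
  by_cases hk : M.Z ≤ cfker ψ
  · exact ⟨j, by rw [cfdot_cf1_of_le_cfker hk, ← hj]; ring⟩
  · obtain ⟨i, hi⟩ := M.deg_U hq hψ hk
    refine ⟨j + i, ?_⟩
    rw [Irr.cfdot_cf1_normal_eq_zero hψ M.Z_le_U (M.normalizer_Z ▸ M.U_le_B) hk, Irr.apply_one hψ, hi]
    push_cast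
    linear_combination hj

theorem orderOf_u {a : F} (ha : a ≠ 0) (b : F) : orderOf (M.u a b) = 4 :=
  ((M.orderOf_eq_of_pow_four (M.u_pow_four a b) fun e => ha (M.u_eq_one.1 e).1).resolve_left
    fun e => ha (M.u_sq_eq_one.1 e.2)).1

theorem data {χ : G → ℂ} (hχ : χ ∈ Irr (⊤ : Subgroup G)) : ∃ S P d s : ℤ, χ (M.u 0 1) = S ∧
    χ (M.u 1 0) + χ (M.u 1 0)⁻¹ = 2 * P ∧ (2 * (2 ^ m) ^ 2) ^ 2 * d = deg χ + (2 * (2 ^ m) ^ 2 - 1) * S +
      ((2 * (2 ^ m) ^ 2) ^ 2 - 2 * (2 ^ m) ^ 2) * P ∧ 2 ^ m * s = P - S := by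
  have hc := Irr.isChar hχ
  have cl : ∀ {x y}, IsConj x y → χ x = χ y := fun h => by
    obtain ⟨g, rfl⟩ := isConj_iff.1 h; exact (CF.conj hc.mem_CF (Subgroup.mem_top g) _).symm
  have ci : ∀ {x y : G}, IsConj x y → IsConj x⁻¹ y⁻¹ := fun h => by
    obtain ⟨g, rfl⟩ := isConj_iff.1 h; exact isConj_iff.2 ⟨g, by group⟩
  obtain ⟨S, hS⟩ := exists_re hc (M.u_pow_four 0 1)
  obtain ⟨P, hP⟩ := exists_re hc (M.u_pow_four 1 0)
  rw [inv_eq_of_mul_eq_one_right (M.u_zero_sq 1), ← two_mul, mul_right_inj' two_ne_zero] at hS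
  obtain ⟨d, hd⟩ := (hc.res (le_top (a := M.U))).exists_cfdot_nat (isChar_cf1 M.U)
  obtain ⟨j, hj⟩ := M.dvd_U hq (hc.res le_top)
  have q : (Nat.card F : ℂ) = 2 * (2 ^ m) ^ 2 := by rw [hq]; push_cast; ring
  have sZ : ∑ x ∈ fs (M.Z : Set G), χ x = deg χ + (2 * (2 ^ m) ^ 2 - 1) * S := by
    rw [sum_diff bot_le (c := S) (by
      rintro _ ⟨b, rfl⟩ h
      exact (cl (M.isConj_of_sq (M.u_zero_sq b) h (M.u_zero_sq 1) fun e => one_ne_zero (M.u_eq_one.1 e).2)).trans hS),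
      M.card_Z, q]
    simp [hc.apply_one]
  have sU := sum_diff M.Z_le_U (f := fun x => χ x + χ x⁻¹) (c := 2 * P) (by
    rintro _ ⟨a, b, rfl⟩ h
    rcases M.isConj_or_of_orderOf (M.orderOf_u hq (mt M.u_mem_Z_iff.2 h) b) (M.orderOf_u hq one_ne_zero 0) with e | e
    · rw [cl e, cl (ci e), hP]
    · rw [cl e, cl (ci e), inv_inv, add_comm, hP])
  rw [Finset.sum_add_distrib, Finset.sum_add_distrib, sum_fs_inv, sum_fs_inv, sZ, M.card_U, M.card_Z, Nat.cast_pow, q] at sU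
  rw [cfdot_res_left, cfdot_cf1_right, M.card_U, Nat.cast_pow, q, inv_mul_eq_iff_eq_mul₀ (by simp)] at hd
  rw [cfdot_cf1_right, sum_fs_congr fun x hx => res_of_mem χ (M.Z_le_U hx), sZ, M.card_Z, q, res_one_apply,
    hc.apply_one] at hj
  have e1 : (2 * (2 ^ m) ^ 2 : ℤ) ^ 2 * d = deg χ + (2 * (2 ^ m) ^ 2 - 1) * S +
      ((2 * (2 ^ m) ^ 2) ^ 2 - 2 * (2 ^ m) ^ 2) * P := Int.cast_injective (α := ℂ) (by
    push_cast; linear_combination sU / 2 - hd)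
  have e2 : (2 * (2 ^ m) ^ 2 - 1 : ℤ) * (deg χ - S) = 2 * (2 ^ m) ^ 3 * j := Int.cast_injective (α := ℂ) (by
    push_cast; field_simp at hj; linear_combination hj)
  generalize hk : (2 : ℤ) ^ m = k at e1 e2 ⊢
  have k0 : k ≠ 0 := hk ▸ pow_ne_zero _ two_ne_zero
  obtain ⟨i, hi⟩ : 2 * k ^ 3 ∣ deg χ - S := IsCoprime.dvd_of_dvd_mul_left
    ⟨4 * k ^ 3, -(1 + 2 * k ^ 2 + 4 * k ^ 4), by ring⟩ ⟨j, e2⟩
  exact ⟨S, P, d, i + 2 * k * (P - d), hS, hP, e1, mul_left_cancel₀ (mul_ne_zero two_ne_zero (pow_ne_zero 2 k0))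
    (by linear_combination -e1 - hi)⟩

include M in
theorem degrees (hm : 1 ≤ m) {k q : ℤ} (hk : 2 ^ m = k) (hQ : 2 * k ^ 2 = q) :
    (∃ χ : IrrCharacter G, deg χ.1 = q ^ 2 + 1) ∧ (∃ χ : IrrCharacter G, deg χ.1 = (q - 1) * (q - 2 * k + 1)) ∧
    (∃ χ : IrrCharacter G, deg χ.1 = (q - 1) * (q + 2 * k + 1)) ∧ (∃ χ : IrrCharacter G, 2 * (q - 1) ∣ deg χ.1) ∧
    ∀ (χ : IrrCharacter G) (r : ℕ), r.Prime → (r : ℤ) ∣ q ^ 2 + 1 → r ∣ deg χ.1 → ¬ 2 ∣ deg χ.1 := by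
  have ht := have := Fintype.ofFinite F; exists_ne_zero_ne_one hm (Nat.card_eq_fintype_card.symm.trans hq)
  choose S P d s hS hP hd hs using fun χ : IrrCharacter G => M.data hq (mem_Irr_top.2 χ.2)
  simp only [hk, hQ] at hd hs
  obtain ⟨l, hl, l0⟩ : ∃ l, k = 2 * l ∧ 0 < l := ⟨2 ^ (m - 1), by rw [← hk, ← pow_succ', Nat.sub_add_cancel hm], by positivity⟩
  have cq : (Nat.card F : ℤ) = q := by rw [hq, ← hQ, ← hk]; push_cast; ring
  have cq' : (Nat.card F : ℂ) = q := by exact_mod_cast cq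
  have q0 : q ≠ 0 := cq ▸ Nat.cast_ne_zero.2 Nat.card_pos.ne'
  have hX : ∀ χ : IrrCharacter G, χ.1 1 = ((deg χ.1 : ℤ) : ℂ) := fun χ => Irr.apply_one (mem_Irr_top.2 χ.2)
  have X0 : ∀ χ : IrrCharacter G, (0 : ℤ) < deg χ.1 := fun χ => Nat.cast_pos.2 (Irr.deg_pos (mem_Irr_top.2 χ.2))
  have t1 : M.u 0 1 ≠ 1 := fun e => one_ne_zero (M.u_eq_one.1 e).2
  have o2 : orderOf (M.u 0 1) = 2 := orderOf_eq_prime ((sq _).trans (M.u_zero_sq 1)) t1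
  have o4 := M.orderOf_u hq one_ne_zero 0
  have z : ∀ x y : G, orderOf x ≠ orderOf y → ∑ χ : IrrCharacter G, χ.1 x * conj (χ.1 y) = 0 := fun x y h =>
    sum_irr_mul_conj_of_not_isConj fun e => h (by
      obtain ⟨g, rfl⟩ := isConj_iff.1 e; exact ((MulAut.conj g).orderOf_eq x).symm)
  have ca : ∀ (a b : IrrCharacter G → ℤ) (n : ℤ), ∑ χ, (a χ : ℂ) * conj (b χ : ℂ) = n → ∑ χ, a χ * b χ = n :=
    fun a b n h => Int.cast_injective (α := ℂ) (by simpa using h)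
  have hP' : ∀ χ, (P χ : ℂ) = 2⁻¹ * (χ.1 (M.u 1 0) + χ.1 (M.u 1 0)⁻¹) := fun χ => by rw [hP]; ring
  have zP : ∀ x : G, orderOf x ≠ 4 → ∑ χ : IrrCharacter G, χ.1 x * conj (P χ : ℂ) = 0 := fun x h => by
    simp only [hP', map_mul, map_add, mul_left_comm _ (conj (2⁻¹ : ℂ)), mul_add, Finset.sum_add_distrib, ← Finset.mul_sum]
    rw [z _ _ (o4 ▸ h), z _ _ (by rwa [orderOf_inv, o4]), mul_zero, add_zero]
  have b1 := ca (fun χ => deg χ.1) (fun χ => deg χ.1) (q ^ 2 * (q - 1) * (q ^ 2 + 1)) (by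
    simp only [← hX]
    rw [sum_irr_mul_conj_of_isConj (IsConj.refl 1), Subgroup.centralizer_eq_top_iff_subset.2 (by simp),
      Subgroup.card_top, M.card_G]
    simp [Nat.cast_sub Nat.card_pos, cq'])
  have b2 := ca S S (q ^ 2) (by
    simp only [← hS]
    rw [sum_irr_mul_conj_of_isConj (IsConj.refl _), show Subgroup.centralizer {M.u 0 1} = M.U from le_antisymm
      (fun x hx => M.mem_U_of_commute (M.u_mem_U 0 1) t1 (Subgroup.mem_centralizer_singleton_iff.1 hx)) (by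
        rintro _ ⟨a, b, rfl⟩; exact Subgroup.mem_centralizer_singleton_iff.2 (M.u_zero_comm ..).symm), M.card_U]
    simp [cq'])
  have b3 := ca P P q (by
    have n := M.not_isConj_inv_of_orderOf o4
    simp only [hP', map_mul, map_add, mul_mul_mul_comm _ _ (conj (2⁻¹ : ℂ)), ← Finset.mul_sum]
    simp only [mul_add, add_mul, Finset.sum_add_distrib]
    rw [sum_irr_mul_conj_of_isConj (IsConj.refl _), sum_irr_mul_conj_of_isConj (IsConj.refl _),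
      sum_irr_mul_conj_of_not_isConj n, sum_irr_mul_conj_of_not_isConj (mt IsConj.symm n), M.u_inv,
      M.card_centralizer_u one_ne_zero, M.card_centralizer_u one_ne_zero, map_inv₀, map_ofNat, Nat.cast_mul, cq']
    ring)
  have b4 := ca (fun χ => deg χ.1) S 0 (by simp only [← hX, ← hS]; exact (z _ _ (by simp [o2])).trans Int.cast_zero.symm)
  have b5 := ca (fun χ => deg χ.1) P 0 (by simp only [← hX]; exact (zP _ (by simp)).trans Int.cast_zero.symm)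
  have b6 := ca S P 0 (by simp only [← hS]; exact (zP _ (by simp [o2])).trans Int.cast_zero.symm)
  let L : (IrrCharacter G → ℤ) → ℤ → ℤ → ℤ → Prop := fun c u v w => ∀ χ, q ^ 2 * c χ = u * deg χ.1 + v * S χ + w * P χ
  have dot : ∀ {c c' u v w u' v' w'} (n : ℤ), L c u v w → L c' u' v' w' → u * u' * (q ^ 2 * (q - 1) * (q ^ 2 + 1)) +
      v * v' * q ^ 2 + w * w' * q = q ^ 4 * n → ∑ χ, c χ * c' χ = n := fun {c c' u v w u' v' w'} n h h' e => by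
    refine mul_left_cancel₀ (pow_ne_zero 4 q0) ?_
    rw [← e, ← b1, Finset.mul_sum, Finset.sum_congr rfl fun χ _ => show q ^ 4 * (c χ * c' χ) = u * u' * (deg χ.1 * deg χ.1) +
      v * v' * (S χ * S χ) + w * w' * (P χ * P χ) + (u * v' + v * u') * (deg χ.1 * S χ) + (u * w' + w * u') *
      (deg χ.1 * P χ) + (v * w' + w * v') * (S χ * P χ) by
        linear_combination (q ^ 2 * c χ) * (h' χ) + (u' * deg χ.1 + v' * S χ + w' * P χ) * (h χ)]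
    simp only [Finset.sum_add_distrib, ← Finset.mul_sum, b2, b3, b4, b5, b6, mul_zero, add_zero]
  have ort : ∀ {A w}, IsTorus A w → ∀ {c u v w}, L c u v w → Orth A c := fun {A _} T c u v w h x hx h1 => by
    have o : ∀ n : ℕ, n ∣ 4 → orderOf x ≠ n := fun n a e =>
      T.not_mem_of_pow_four (orderOf_dvd_iff_pow_eq_one.1 (e ▸ a)) h1 hx
    refine mul_left_cancel₀ (pow_ne_zero 2 (Int.cast_ne_zero.2 q0 : (q : ℂ) ≠ 0)) ?_
    rw [Finset.mul_sum, Finset.sum_congr rfl fun χ _ => show _ = u * (χ.1 x * conj (χ.1 1)) + v * (χ.1 x *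
      conj (χ.1 (M.u 0 1))) + w * (χ.1 x * conj (P χ : ℂ)) by
        have := congrArg (Int.cast : ℤ → ℂ) (h χ)
        rw [hX, hS, map_intCast, map_intCast, map_intCast]
        push_cast at this ⊢
        linear_combination χ.1 x * this]
    simp only [Finset.sum_add_distrib, ← Finset.mul_sum]
    rw [z _ _ (o _ (by simp)), z _ _ (o _ (by rw [o2]; decide)), zP _ (o _ dvd_rfl)]
    simp
  have L0 : L d 1 (q - 1) (q ^ 2 - q) := fun χ => by rw [hd, one_mul]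
  have L1 : L (fun χ => 2 * P χ - d χ + s χ) (-1) (1 - q - 4 * k ^ 3) (q ^ 2 + q + 4 * k ^ 3) := fun χ => by
    linear_combination -hd χ + 4 * k ^ 3 * hs χ - s χ * (q + 2 * k ^ 2) * hQ
  have L2 : L (fun χ => 2 * P χ - d χ - s χ) (-1) (1 - q + 4 * k ^ 3) (q ^ 2 + q - 4 * k ^ 3) := fun χ => by
    linear_combination -hd χ - 4 * k ^ 3 * hs χ + s χ * (q + 2 * k ^ 2) * hQ
  have eX : ∀ χ, (deg χ.1 : ℤ) = d χ + (q ^ 2 - 1) * (d χ - P χ) + (q - 1) * k * s χ := fun χ => by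
    linear_combination -hd χ - (q - 1) * hs χ
  obtain ⟨g, y, hg, hy, c1, c2, -⟩ := M.exists_tori hm hq
  have T0 := M.isTorus_H ht
  have T1 := hg.isTorus hm hq
  have T2 := hy.isTorus hm hq
  have c0 : (Nat.card M.H : ℤ) = q - 1 := by rw [M.card_H, Nat.cast_sub Nat.card_pos, cq, Nat.cast_one]
  replace c1 : (Nat.card (Subgroup.centralizer {g}) : ℤ) = q + 2 * k + 1 := by
    rw [c1, ← hq]; push_cast; rw [cq, pow_succ', hk]
  replace c2 : (Nat.card (Subgroup.centralizer {y}) : ℤ) = q - 2 * k + 1 := by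
    rw [c2, Nat.cast_add, Nat.cast_sub (Nat.pow_le_pow_right two_pos (by omega)), ← hq]; push_cast; rw [cq, pow_succ', hk]
  have s0 := dot (2 * (q - 1)) L0 L0 (by ring)
  have s1 := dot (4 * (q + 2 * k + 1)) L1 L1 (by rw [← hQ]; ring)
  have s2 := dot (4 * (q - 2 * k + 1)) L2 L2 (by rw [← hQ]; ring)
  obtain ⟨E0, a0, e0⟩ := T0.exc (c0 ▸ s0) (ort T0 L0) fun χ => by
    rw [c0]; exact ⟨(q + 1) * (d χ - P χ) + k * s χ, by linear_combination eX χ⟩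
  have v1 : ∀ χ, q + 2 * k + 1 ∣ deg χ.1 - (2 * P χ - d χ + s χ) := fun χ =>
    ⟨(q - 2 * k + 1) * (d χ - P χ) + (k - 1) * s χ, by rw [eX, ← hQ]; ring⟩
  have v2 : ∀ χ, q - 2 * k + 1 ∣ deg χ.1 - (2 * P χ - d χ - s χ) := fun χ =>
    ⟨(q + 2 * k + 1) * (d χ - P χ) + (k + 1) * s χ, by rw [eX, ← hQ]; ring⟩
  obtain ⟨E1, a1, e1⟩ := T1.exc (c1 ▸ s1) (ort T1 L1) (c1 ▸ v1)
  obtain ⟨E2, a2, e2⟩ := T2.exc (c2 ▸ s2) (ort T2 L2) (c2 ▸ v2)
  replace a0 := fun χ h => And.intro (a0 χ h).1 (And.intro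
    ((a0 χ h).2 _ (ort T0 L1) (dot 0 L0 L1 (by rw [← hQ]; ring))) ((a0 χ h).2 _ (ort T0 L2) (dot 0 L0 L2 (by rw [← hQ]; ring))))
  replace a1 := fun χ h => And.intro (a1 χ h).1 (And.intro
    ((a1 χ h).2 _ (ort T1 L0) (dot 0 L1 L0 (by rw [← hQ]; ring))) ((a1 χ h).2 _ (ort T1 L2) (dot 0 L1 L2 (by rw [← hQ]; ring))))
  replace a2 := fun χ h => And.intro (a2 χ h).1 (And.intro
    ((a2 χ h).2 _ (ort T2 L0) (dot 0 L2 L0 (by rw [← hQ]; ring))) ((a2 χ h).2 _ (ort T2 L1) (dot 0 L2 L1 (by rw [← hQ]; ring))))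
  obtain ⟨χ₀, x1⟩ : ∃ χ : IrrCharacter G, χ.1 = cf1 ⊤ := ⟨⟨_, mem_Irr_top.1 (cf1_mem_Irr ⊤)⟩, rfl⟩
  have x2 : P χ₀ = 1 := Int.cast_injective (α := ℂ) (by rw [hP', x1, cf1_top]; norm_num)
  have x3 : S χ₀ = 1 := Int.cast_injective (α := ℂ) (by rw [← hS, x1, cf1_top]; norm_num)
  have x4 : s χ₀ = 0 := by have := hs χ₀; rw [x2, x3, sub_self, mul_eq_zero] at this; omega
  have x5 : d χ₀ = 1 := mul_left_cancel₀ (pow_ne_zero 2 q0) (by rw [hd, x1, deg_cf1, x2, x3]; ring)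
  exact arith hQ hl l0 X0 eX v1 v2 s0 s1 s2 e0 e1 e2 a0 a1 a2 x2 x4 x5

end Model

end Cfsg.Lib.Sz
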