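import Cfsg.Agent.Lib.Sz.Classes
import Cfsg.Agent.Lib.PF.CFKer

/-! # Exceptional characters of a torus, normalised by a given integer-valued function -/

set_option autoImplicit false

namespace Cfsg.Lib.Sz

open Cfsg.Lib.PF Cfsg.Lib.Char
open scoped ComplexConjugate Classical

variable {G : Type*} [Group G] [Finite G] {A : Subgroup G} {w : ℕ} {c : IrrCharacter G → ℤ}

/-- `c` is orthogonal to the columns of the non-identity elements of `A` -/
def Orth (A : Subgroup G) (c : IrrCharacter G → ℤ) : Prop := ∀ x ∈ A, x ≠ 1 → ∑ χ, (c χ : ℂ) * χ.1 x = 0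

/-- the character with its degree replaced -/
noncomputable def md (c : IrrCharacter G → ℤ) (χ : IrrCharacter G) : G → ℂ := Function.update χ.1 1 (c χ)

theorem sq_one {ι : Type*} [Fintype ι] {f : ι → ℤ} (h : ∑ i, f i * f i = 1) {i : ι} (hi : f i ≠ 0) :
    f i ^ 2 = 1 ∧ ∀ g : ι → ℤ, ∑ j, f j * g j = f i * g i := by
  rw [← Finset.add_sum_erase _ _ (Finset.mem_univ i)] at h
  have h1 := Finset.sum_nonneg fun j (_ : j ∈ Finset.univ.erase i) => mul_self_nonneg (f j)
  have h2 := mul_self_pos.2 hi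
  refine ⟨by rw [sq]; omega, fun g => Finset.sum_eq_single i (fun j _ hj => ?_) (by simp)⟩
  rw [mul_self_eq_zero.1 ((Finset.sum_eq_zero_iff_of_nonneg fun j _ => mul_self_nonneg (f j)).1 (by omega) j
    (Finset.mem_erase.2 ⟨hj, Finset.mem_univ j⟩)), zero_mul]

theorem mixed {c' : IrrCharacter G → ℤ} (h : Orth A c') (φ : G → ℂ) :
    ∑ χ, cfdot A (md c χ) φ * c' χ = (Nat.card A : ℂ)⁻¹ * conj (φ 1) * (∑ χ, c χ * c' χ : ℤ) := by
  simp only [cfdot_def, mul_assoc, ← Finset.mul_sum, Finset.sum_mul]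
  rw [Finset.sum_comm, Finset.sum_eq_single 1 (fun x hx h1 => ?_) (by simp)]
  · simp [md, Finset.mul_sum, mul_left_comm]
  · rw [← mul_zero (conj (φ x)), ← h x (mem_fs.1 hx) h1, Finset.mul_sum]
    exact Finset.sum_congr rfl fun χ _ => by rw [md, Function.update_of_ne h1]; ring

namespace IsTorus
variable (T : IsTorus A w) (h2 : ∑ χ, c χ * c χ = w * Nat.card A) (h3 : Orth A c)
include T h2 h3

theorem kern {x y : G} (hx : x ∈ A) (hy : y ∈ A) : ∑ χ, md c χ x * conj (md c χ y) =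
    ∑ g ∈ fs (Subgroup.normalizer (A : Set G) : Set G), if g * x * g⁻¹ = y then 1 else 0 := by
  by_cases h1 : x = 1 <;> by_cases h4 : y = 1
  · simpa [md, h1, h4, card_fs_subgroup, T.card_norm] using congrArg (Int.cast : ℤ → ℂ) h2
  · simpa [md, h1, h4, Ne.symm h4] using congrArg conj (h3 y hy h4)
  · simpa [md, h1, h4, mul_comm] using h3 x hx h1
  have := Fintype.ofFinite G
  rw [← sum_fs_subset (Set.subset_univ _) fun g _ hg => if_neg fun e : g * x * g⁻¹ = y => hg (T.mem_normalizer hx h1 (e ▸ hy)), fs_univ,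
    Finset.sum_boole, ← Fintype.card_subtype, ← Nat.card_eq_fintype_card]
  simp only [md, Function.update_of_ne h1, Function.update_of_ne h4]
  by_cases h : IsConj x y
  · rw [sum_irr_mul_conj_of_isConj h, card_conj_fiber h]
  · have : IsEmpty {g : G // g * x * g⁻¹ = y} := ⟨fun g => h (isConj_iff.2 ⟨_, g.2⟩)⟩
    rw [sum_irr_mul_conj_of_not_isConj h, Nat.card_of_isEmpty, Nat.cast_zero]

theorem gram (φ ψ : G → ℂ) : ∑ χ, cfdot A (md c χ) φ * conj (cfdot A (md c χ) ψ) = (Nat.card A : ℂ)⁻¹ *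
    ∑ g ∈ fs (Subgroup.normalizer (A : Set G) : Set G), cfdot A (cfConj g ψ) φ := by
  have e : ∀ x ∈ fs (A : Set G), ∑ y ∈ fs (A : Set G), ∑ χ, md c χ x * conj (φ x) * (conj (md c χ y) * ψ y) =
      ∑ g ∈ fs (Subgroup.normalizer (A : Set G) : Set G), ψ (g * x * g⁻¹) * conj (φ x) := fun x hx => by
    rw [Finset.sum_congr rfl fun y hy => show _ = ∑ g ∈ fs (Subgroup.normalizer (A : Set G) : Set G),
      if g * x * g⁻¹ = y then ψ y * conj (φ x) else 0 by
        simp only [← boole_mul (_ = y) (ψ y * conj (φ x))]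
        rw [← Finset.sum_mul, ← T.kern h2 h3 (mem_fs.1 hx) (mem_fs.1 hy), Finset.sum_mul]
        exact Finset.sum_congr rfl fun χ _ => by ring, Finset.sum_comm]
    exact Finset.sum_congr rfl fun g hg => by
      simp [(Subgroup.mem_normalizer_iff.1 (mem_fs.1 hg) x).1 (mem_fs.1 hx)]
  simp only [cfdot_def, map_mul, map_inv₀, map_natCast, map_sum, Complex.conj_conj, cfConj_apply]
  rw [← Finset.mul_sum, Finset.sum_comm, ← Finset.sum_congr rfl e]
  simp only [mul_mul_mul_comm (Nat.card A : ℂ)⁻¹, Finset.sum_mul_sum]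
  rw [← Finset.mul_sum, mul_assoc, Finset.sum_comm]
  exact congrArg _ (congrArg _ (Finset.sum_congr rfl fun x _ => Finset.sum_comm))

theorem exc (h1 : ∀ χ : IrrCharacter G, (Nat.card A : ℤ) ∣ deg χ.1 - c χ) : ∃ E : Finset (IrrCharacter G),
    (∀ χ ∈ E, c χ ^ 2 = w ^ 2 ∧ ∀ c', Orth A c' → ∑ χ, c χ * c' χ = 0 → c' χ = 0) ∧ ∑ χ ∈ Eᶜ, c χ ^ 2 = w := by
  have hc : ∀ a ∈ A, ∀ b ∈ A, a * b = b * a := fun a ha b hb => comm_of_isCyclic T.cyc ha hb
  have n0 := card_ne_zero A
  have z : ∀ χ, ∀ l ∈ Irr A, cfdot A (md c χ) l = zdot A (md c χ) l := fun χ l hl => by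
    have hχ := mem_Irr_top.2 χ.2
    obtain ⟨k, hk⟩ := h1 χ
    obtain ⟨j, hj⟩ := ((Irr.isChar hχ).res (le_top (a := A))).exists_cfdot_nat (Irr.isChar hl)
    have : cfdot A (md c χ) l = (j - k : ℤ) := by
      rw [cfdot_res_left, cfdot_def, ← sum_fs_diff_singleton A.one_mem] at hj
      rw [cfdot_def, ← sum_fs_diff_singleton A.one_mem, sum_fs_congr (g := fun x => χ.1 x * conj (l x))
        fun x hx => by rw [md, Function.update_of_ne hx.2]]
      have := congrArg (Int.cast : ℤ → ℂ) hk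
      simp only [md, Function.update_self, Irr.apply_one_of_comm hl hc, Irr.apply_one hχ, map_one] at hj ⊢
      push_cast at this ⊢
      rw [← hj]
      field_simp
      linear_combination -this
    rw [zdot_of_eq this, this]
  have g : ∀ l ∈ Irr A, ∀ l' ∈ Irr A, ((∑ χ, zdot A (md c χ) l * zdot A (md c χ) l' : ℤ) : ℂ) = (Nat.card A : ℂ)⁻¹ *
      ∑ g ∈ fs (Subgroup.normalizer (A : Set G) : Set G), cfdot A (cfConj g l') l := fun l hl l' hl' => by
    rw [← T.gram h2 h3]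
    simp [z _ _ hl, z _ _ hl']
  have g1 : ∀ l ∈ Irr A, ((∑ χ, zdot A (md c χ) l * zdot A (md c χ) (cf1 A) : ℤ) : ℂ) = w * cfdot A (cf1 A) l :=
    fun l hl => by
      rw [g l hl _ (cf1_mem_Irr A), sum_fs_congr fun g hg => by rw [cfConj_cf1 hg], Finset.sum_const, card_fs_subgroup,
        T.card_norm]
      simp only [nsmul_eq_mul, Nat.cast_mul]
      field_simp
  have g2 : ∀ l ∈ Irr A, l ≠ cf1 A → ∑ χ, zdot A (md c χ) l * zdot A (md c χ) l = 1 := fun l hl hn => by
    have l1 := Irr.apply_one_of_comm hl hc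
    refine Int.cast_injective (α := ℂ) ?_
    rw [g l hl l hl, sum_fs_subset (B := A) Subgroup.le_normalizer fun g hg hA =>
      Irr.cfdot_ne (Irr.cfConj_mem hg hl) hl fun e => hn ((eq_cf1_iff (Irr.mem_CF hl)).2 fun b hb => ?_),
      sum_fs_congr fun g hg => by rw [CF.cfConj_eq (Irr.mem_CF hl) hg, Irr.cfdot_self hl]]
    · simp [card_fs_subgroup, n0]
    obtain ⟨a, ha, h⟩ := T.exists_conj hg hA hb
    rw [show b = a * (g * a⁻¹ * g⁻¹) by rw [← mul_assoc, ← mul_assoc, h, mul_inv_cancel_right],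
      (Irr.isChar hl).map_mul_of_apply_one l1 ha ((Subgroup.mem_normalizer_iff.1 hg _).1 (inv_mem ha)),
      ← cfConj_apply g l, e, ← (Irr.isChar hl).map_mul_of_apply_one l1 ha (inv_mem ha), mul_inv_cancel, l1]
  have mx : ∀ l ∈ Irr A, ∀ c', Orth A c' → (Nat.card A : ℤ) * ∑ χ, zdot A (md c χ) l * c' χ = ∑ χ, c χ * c' χ :=
    fun l hl c' h => Int.cast_injective (α := ℂ) (by
      have := mixed (c := c) h l
      simp only [z _ _ hl, Irr.apply_one_of_comm hl hc, map_one, mul_one] at this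
      push_cast at this ⊢
      rw [this, mul_inv_cancel_left₀ n0])
  have n1 : (Nat.card A : ℤ) ≠ 0 := by exact_mod_cast Nat.card_pos.ne'
  refine ⟨Finset.univ.filter fun χ => ∃ l ∈ Irr A, l ≠ cf1 A ∧ zdot A (md c χ) l ≠ 0, fun χ hχ => ?_, ?_⟩
  · obtain ⟨-, l, hl, a, b⟩ := Finset.mem_filter.1 hχ
    obtain ⟨s1, s2⟩ := sq_one (g2 l hl a) b
    refine ⟨?_, fun c' h e => ?_⟩
    · have := mx l hl c h3
      rw [s2, h2, mul_comm] at this
      rw [← mul_right_cancel₀ n1 this, mul_pow, s1, one_mul]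
    · have := mx l hl c' h
      rw [s2, e] at this
      exact (mul_eq_zero.1 ((mul_eq_zero.1 this).resolve_left n1)).resolve_left b
  have := g1 _ (cf1_mem_Irr A)
  rw [cfdot_cf1_cf1, mul_one, ← Int.cast_natCast, Int.cast_inj, ← Finset.sum_add_sum_compl
    (Finset.univ.filter fun χ => ∃ l ∈ Irr A, l ≠ cf1 A ∧ zdot A (md c χ) l ≠ 0), Finset.sum_eq_zero fun χ hχ => ?_,
    zero_add] at this
  · refine (Finset.sum_congr rfl fun χ hχ => ?_).trans this
    have hf : res A (md c χ) ∈ CF A := mem_CF_of (fun x hx => res_of_not_mem _ hx) fun h hh x hx => by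
      rw [hc h hh x hx, mul_inv_cancel_right]
    have := CF.apply_eq_sum_Irr hf 1
    rw [Finset.sum_eq_single_of_mem _ (cf1_mem_Irr A) fun l hl a => by
      rw [cfdot_res_left, z _ _ hl, not_ne_iff.1 fun b => Finset.mem_compl.1 hχ
        (Finset.mem_filter.2 ⟨Finset.mem_univ _, l, hl, a, b⟩), Int.cast_zero, zero_mul], cfdot_res_left,
      z _ _ (cf1_mem_Irr A), cf1_one, mul_one, res_one_apply, md, Function.update_self, Int.cast_inj] at this
    rw [sq]
    exact congrArg₂ _ this this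
  · obtain ⟨-, l, hl, a, b⟩ := Finset.mem_filter.1 hχ
    have := g1 l hl
    rw [(sq_one (g2 l hl a) b).2, Irr.cfdot_ne (cf1_mem_Irr A) hl a.symm, mul_zero, Int.cast_eq_zero] at this
    rw [(mul_eq_zero.1 this).resolve_left b, mul_zero]

end IsTorus

end Cfsg.Lib.Sz
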