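import Mathlib

/-!
A non-trivial word has non-scalar values on `SL₂(F)` for all large finite fields `F`.
-/

namespace Cfsg.Lib.Sz
open Polynomial Matrix
open scoped MatrixGroups

variable {F : Type*} [Field F]

/-- lower unitriangular matrix -/
def lowU (t : F) : SL(2, F) := ⟨!![1, 0; t, 1], by simp⟩

/-- Weyl element -/
def weyl2 : SL(2, F) := ⟨!![0, 1; -1, 0], by simp⟩

theorem sl_mul (A B : SL(2, F)) : (A * B).1 = A.1 * B.1 := rfl

theorem sl_inv (A : SL(2, F)) : (A⁻¹).1 = A.1.adjugate := rfl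

theorem coe_lowU (t : F) : (lowU t).1 = !![1, 0; t, 1] := rfl

theorem coe_weyl2 (b : Bool) : (cond b weyl2 weyl2⁻¹ : SL(2, F)).1 =
    !![0, cond b 1 (-1); -cond b 1 (-1), 0] := by
  cases b
  · exact (sl_inv _).trans (by simp [weyl2])
  · rfl

theorem lowU_add (t u : F) : lowU (t + u) = lowU t * lowU u :=
  Subtype.ext (by simp [coe_lowU, sl_mul])

theorem lowU_inv (t : F) : (lowU t)⁻¹ = lowU (-t) :=
  Subtype.ext (by simp [coe_lowU, sl_inv])

/-- the substitution -/
def lawGen (x : F) (i : ℕ) : SL(2, F) := lowU (x ^ (2 * i + 1)) * weyl2 * lowU (x ^ (2 * i + 2))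

theorem law_aux {B : ℕ} (L : List (ℕ × Bool)) (hL : FreeGroup.IsReduced L)
    (hB : ∀ l ∈ L, 2 * l.1 + 2 ≤ B) (P : F[X]) (hP : P.natDegree ≤ B)
    (hP' : ∀ l ∈ L.head?, P.natDegree ≠ 2 * l.1 + cond l.2 1 2) :
    ∃ V W : F[X], (∀ x, (lowU (P.eval x) * FreeGroup.lift (lawGen x) (FreeGroup.mk L)).1 *ᵥ ![0, 1] =
      ![V.eval x, W.eval x]) ∧ W ≠ 0 ∧ V.natDegree ≤ W.natDegree ∧ W.natDegree ≤ B * L.length ∧
        (L ≠ [] → V ≠ 0) := by
  induction L generalizing P with
  | nil =>
    refine ⟨0, 1, fun x => ?_, by simp, by simp, by simp, by simp⟩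
    rw [← FreeGroup.one_eq_mk, map_one, mul_one]
    ext i
    fin_cases i <;> simp [lowU]
  | cons l L ih =>
    have h1 := hB l (by simp)
    set ε : F := cond l.2 1 (-1) with hε
    have h0 : ε ≠ 0 := by rw [hε]; cases l.2 <;> simp
    obtain ⟨V, W, h2, h3, h4, h5, -⟩ := ih (hL.infix ⟨[l], [], by simp⟩)
      (fun l h => hB l (by simp [h])) (C ε * X ^ (2 * l.1 + cond l.2 2 1))
      (by rw [natDegree_C_mul_X_pow _ _ h0]; cases l.2 <;> simp <;> omega) fun l' h => by
        obtain ⟨L, rfl⟩ := List.head?_eq_some_iff.1 h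
        have := (FreeGroup.isReduced_cons_cons.1 hL).1
        rw [natDegree_C_mul_X_pow _ _ h0]
        cases h1 : l.2 <;> cases h2 : l'.2 <;> simp_all <;> omega
    have h6 := hP' l (by simp)
    set s := 2 * l.1 + cond l.2 1 2 with hs
    have h7 : 0 < s ∧ s ≤ B := by rw [hs]; cases l.2 <;> simp <;> omega
    have h8 : (P + C ε * X ^ s).natDegree = max P.natDegree s := by
      have e := natDegree_C_mul_X_pow s ε h0
      rcases h6.lt_or_gt with h | h
      · rw [natDegree_add_eq_right_of_natDegree_lt (h.trans_eq e.symm), max_eq_right h.le, e]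
      · rw [natDegree_add_eq_left_of_natDegree_lt (e.trans_lt h), max_eq_left h.le]
    have h9 : P + C ε * X ^ s ≠ 0 := fun e => by rw [e, natDegree_zero] at h8; omega
    have h10 : ((P + C ε * X ^ s) * W - V).natDegree = max P.natDegree s + W.natDegree := by
      rw [natDegree_sub_eq_left_of_natDegree_lt, natDegree_mul h9 h3, h8]
      rw [natDegree_mul h9 h3, h8]
      omega
    refine ⟨C ε * W, C ε * ((P + C ε * X ^ s) * W - V), fun x => ?_, mul_ne_zero (C_ne_zero.2 h0)
      fun e => ?_, ?_, ?_, fun _ => mul_ne_zero (C_ne_zero.2 h0) h3⟩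
    · have h11 : lowU (P.eval x) * FreeGroup.lift (lawGen x) (FreeGroup.mk (l :: L)) =
          lowU ((P + C ε * X ^ s).eval x) * (cond l.2 weyl2 weyl2⁻¹ *
            (lowU ((C ε * X ^ (2 * l.1 + cond l.2 2 1)).eval x) *
              FreeGroup.lift (lawGen x) (FreeGroup.mk L))) := by
        rw [FreeGroup.lift_mk, FreeGroup.lift_mk, eval_add, lowU_add, hs, hε, List.map_cons]
        cases l.2 <;> simp [mul_assoc, lawGen, lowU_inv]
      rw [h11, sl_mul, sl_mul _ (_ * _), ← mulVec_mulVec, ← mulVec_mulVec, h2, coe_weyl2, ← hε,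
        coe_lowU]
      ext i
      fin_cases i <;> simp [mulVec, dotProduct]
      ring
    · rw [e, natDegree_zero] at h10
      omega
    · rw [natDegree_C_mul h0, natDegree_C_mul h0, h10]
      omega
    · rw [natDegree_C_mul h0, h10, List.length_cons, Nat.mul_succ]
      omega

/-- a non-trivial word has a non-scalar value on `SL₂(F)` if `F` is large -/
theorem exists_law_SL2 {w : FreeGroup ℕ} (hw : w ≠ 1) : ∃ N : ℕ, ∀ (F : Type*) [Field F]
    [Fintype F], N ≤ Fintype.card F → ∃ f : ℕ → SL(2, F), (FreeGroup.lift f w).1 0 1 ≠ 0 := by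
  obtain ⟨B, hB⟩ := (w.toWord.finite_toSet.image fun l => 2 * l.1 + 2).bddAbove
  refine ⟨B * w.toWord.length + 1, fun F _ _ hN => by_contra fun hn => ?_⟩
  obtain ⟨V, W, h1, -, h2, h3, h4⟩ := law_aux (F := F) (B := B) w.toWord FreeGroup.isReduced_toWord
    (fun l h => hB ⟨l, h, rfl⟩) 0 (by simp) fun l _ => by cases l.2 <;> simp
  refine h4 (fun e => hw (FreeGroup.toWord_eq_nil_iff.1 e))
    (eq_zero_of_natDegree_lt_card_of_eval_eq_zero _ Function.injective_id (fun x => ?_) (by omega))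
  have := congrFun (h1 x) 0
  rw [FreeGroup.mk_toWord] at this
  simpa [coe_lowU, mulVec, dotProduct, sl_mul, mul_apply, not_not.1 (not_exists.1 hn _), eq_comm] using this

theorem exists_hom_alternating (G : Type*) [Group G] [Finite G] {n : ℕ} (h : 2 * Nat.card G ≤ n) :
    ∃ φ : G →* alternatingGroup (Fin n), Function.Injective φ := by
  classical
  have := Fintype.ofFinite G
  obtain ⟨ι⟩ : Nonempty (G ⊕ G ↪ Fin n) := Function.Embedding.nonempty_of_card_le (by
    simpa [two_mul] using h)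
  let ψ := (Equiv.Perm.viaEmbeddingHom ι).comp ((Equiv.Perm.sumCongrHom G G).comp
    ((MulAction.toPermHom G G).prod (MulAction.toPermHom G G)))
  refine ⟨ψ.codRestrict _ fun g => ?_, fun a b e => ?_⟩
  · simp [ψ, Equiv.Perm.viaEmbeddingHom, Equiv.Perm.sign_sumCongr]
  · exact MulAction.toPerm_injective (congrArg Prod.fst (Equiv.Perm.sumCongrHom_injective
      (Equiv.Perm.viaEmbeddingHom_injective ι (congrArg Subtype.val e))))

end Cfsg.Lib.Sz
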