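import Cfsg.Agent.Lib.Sz.ModExt
import Cfsg.Agent.Lib.PGroup.Basic

/-!
Martineau's theorem: a normal `2`-subgroup `N` with quotient `Sz(q)`, `q > 2`, on which an element of order `5`
acts without fixed points is elementary abelian.
-/

set_option autoImplicit false

namespace Cfsg.Lib.Sz

open scoped commutatorElement

universe u

variable {F : Type*} [Field F] {G : Type*} [Group G]

section
variable {A : Type*} [AddCommGroup A] [DistribMulAction G A]

theorem simp_sub {S : AddSubgroup A} (hS : InvSub G S) (h0 : S ≠ ⊥)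
    (hm : ∀ T, InvSub G T → T ≠ ⊥ → T ≤ S → T = S) : @SimpAct G _ S _ (subAct hS) := by
  letI := subAct hS
  refine ⟨(AddSubgroup.nontrivial_iff_ne_bot S).2 h0, fun T hT => ?_⟩
  by_cases h : T = ⊥
  · exact Or.inl h
  have := hm (T.map S.subtype) (by rintro g _ ⟨v, hv, rfl⟩; exact ⟨_, hT g v hv, rfl⟩)
    (by rwa [Ne, AddSubgroup.map_eq_bot_iff_of_injective _ S.subtype_injective])
    (AddSubgroup.map_subtype_le T)
  refine Or.inr (eq_top_iff.2 fun v _ => ?_)
  obtain ⟨w, hw, e⟩ : v.1 ∈ T.map S.subtype := by rw [this]; exact v.2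
  exact (Subtype.ext e : w = v) ▸ hw

theorem simp_quo {S : AddSubgroup A} (hS : InvSub G S) (h0 : S ≠ ⊤)
    (hm : ∀ T, InvSub G T → T ≠ ⊤ → S ≤ T → T = S) : @SimpAct G _ (A ⧸ S) _ (quoAct hS) := by
  letI := quoAct hS
  refine ⟨QuotientAddGroup.nontrivial_iff.2 h0, fun T hT => ?_⟩
  by_cases h : T = ⊤
  · exact Or.inr h
  have := hm (T.comap (QuotientAddGroup.mk' S)) (fun g v hv => hT g _ hv)
    (fun e => h (eq_top_iff.2 fun v _ => QuotientAddGroup.induction_on v fun v =>
      (e ▸ AddSubgroup.mem_top v : v ∈ T.comap (QuotientAddGroup.mk' S))))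
    (fun v hv => by simp [(QuotientAddGroup.eq_zero_iff v).2 hv])
  refine Or.inl (eq_bot_iff.2 fun v hv => ?_)
  obtain ⟨v, rfl⟩ := QuotientAddGroup.mk'_surjective S v
  exact (QuotientAddGroup.eq_zero_iff v).2 (this ▸ hv : v ∈ S)

theorem exists_min_inv [Finite A] [Nontrivial A] : ∃ S : AddSubgroup A, InvSub G S ∧ S ≠ ⊥ ∧
    ∀ T, InvSub G T → T ≠ ⊥ → T ≤ S → T = S := by
  obtain ⟨S, hS, hm⟩ := (wellFounded_lt (α := AddSubgroup A)).has_min
    {S | InvSub G S ∧ S ≠ ⊥} ⟨⊤, fun _ _ _ => trivial, top_ne_bot⟩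
  exact ⟨S, hS.1, hS.2, fun T h1 h2 h3 => by_contra fun e => hm T ⟨h1, h2⟩ (lt_of_le_of_ne h3 e)⟩

theorem exists_max_inv [Finite A] [Nontrivial A] : ∃ S : AddSubgroup A, InvSub G S ∧ S ≠ ⊤ ∧
    ∀ T, InvSub G T → T ≠ ⊤ → S ≤ T → T = S := by
  obtain ⟨S, hS, hm⟩ := (wellFounded_gt (α := AddSubgroup A)).has_min
    {S | InvSub G S ∧ S ≠ ⊤} ⟨⊥, fun g v hv => by simp_all, bot_ne_top⟩
  exact ⟨S, hS.1, hS.2, fun T h1 h2 h3 => by_contra fun e =>
    hm T ⟨h1, h2⟩ (lt_of_le_of_ne h3 (Ne.symm e))⟩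

theorem card_sub_lt [Finite A] {S : AddSubgroup A} (h : S ≠ ⊤) : Nat.card S < Nat.card A :=
  lt_of_le_of_ne (Nat.card_le_card_of_injective _ S.subtype_injective)
    fun e => h (AddSubgroup.eq_top_of_card_eq S e)

theorem card_quo_lt [Finite A] {S : AddSubgroup A} (h : S ≠ ⊥) : Nat.card (A ⧸ S) < Nat.card A := by
  rw [AddSubgroup.card_eq_card_quotient_mul_card_addSubgroup S]
  exact lt_mul_of_one_lt_right Nat.card_pos (AddSubgroup.one_lt_card_iff_ne_bot S |>.2 h)

end

namespace Model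

variable (M : Model F G)

/-- An abelian `2`-group on which the element of order five has no fixed points. -/
def Good (A : Type*) [AddCommGroup A] [DistribMulAction G A] : Prop :=
  (∀ v : A, ∃ k : ℕ, 2 ^ k • v = 0) ∧ M.R5 A

section
variable {M} {A : Type*} [AddCommGroup A] [DistribMulAction G A]

theorem Good.sub (h : M.Good A) {S : AddSubgroup A} (hS : InvSub G S) :
    @Good F _ G _ M S _ (subAct hS) :=
  ⟨fun v => (h.1 v.1).imp fun _ e => Subtype.ext e, fun v => Subtype.ext (h.2 v.1)⟩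

theorem Good.quo (h : M.Good A) {S : AddSubgroup A} (hS : InvSub G S) :
    @Good F _ G _ M (A ⧸ S) _ (quoAct hS) :=
  ⟨fun v => QuotientAddGroup.induction_on v fun v => (h.1 v).imp fun _ e =>
    congrArg (QuotientAddGroup.mk' S) e,
   fun v => QuotientAddGroup.induction_on v fun v => congrArg (QuotientAddGroup.mk' S) (h.2 v)⟩

theorem Good.nat [Finite F] [Finite A] (h : M.Good A) (hA : SimpAct G A) :
    ∃ e : A ≃+ M.V, ∀ (g : G) v, e (g • v) = g • e v := by
  refine M.nat_of_simp ?_ hA h.2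
  have := hA.1
  rcases hA.2 (AddMonoidHom.id A + AddMonoidHom.id A).ker (fun g v hv => by
    change g • v + g • v = 0
    rw [← smul_add, show v + v = 0 from hv, smul_zero]) with e | e
  · obtain ⟨v, hv⟩ := exists_ne (0 : A)
    obtain ⟨k, hk⟩ := h.1 v
    refine absurd ?_ hv
    induction k with
    | zero => simpa using hk
    | succ k ih =>
      refine ih (AddSubgroup.mem_bot.1 ?_)
      rw [← e]
      change 2 ^ k • v + 2 ^ k • v = 0
      rw [← hk, pow_succ, mul_two, add_nsmul]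
  · exact fun v => (e ▸ AddSubgroup.mem_top v : v ∈ (AddMonoidHom.id A + AddMonoidHom.id A).ker)

end

variable [Finite F] (ht : ∃ t : F, t ≠ 0 ∧ t ≠ 1)

theorem devissage (P : ∀ (A : Type u) [AddCommGroup A] [DistribMulAction G A], Prop)
    (h0 : ∀ (A : Type u) [AddCommGroup A] [DistribMulAction G A], Subsingleton A → P A)
    (hs : ∀ (A : Type u) [AddCommGroup A] [DistribMulAction G A] (e : A ≃+ M.V),
      (∀ (g : G) v, e (g • v) = g • e v) → P A)
    (he : ∀ (A : Type u) [AddCommGroup A] [DistribMulAction G A] (S : AddSubgroup A) (hS : InvSub G S),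
      @P S _ (subAct hS) → @P (A ⧸ S) _ (quoAct hS) → P A)
    (A : Type u) [AddCommGroup A] [DistribMulAction G A] [Finite A] (h : M.Good A) : P A := by
  induction hn : Nat.card A using Nat.strong_induction_on generalizing A with
  | _ n ih =>
  subst hn
  rcases subsingleton_or_nontrivial A with h1 | h1
  · exact h0 A h1
  by_cases h2 : SimpAct G A
  · obtain ⟨e, he⟩ := h.nat h2
    exact hs A e he
  obtain ⟨S, hS, h3⟩ : ∃ S : AddSubgroup A, InvSub G S ∧ ¬ (S = ⊥ ∨ S = ⊤) := by
    by_contra! hc; exact h2 ⟨h1, hc⟩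
  rw [not_or] at h3
  letI := subAct hS
  letI := quoAct hS
  exact he A S hS (ih _ (card_sub_lt h3.2) S (h.sub hS) rfl) (ih _ (card_quo_lt h3.1) _ (h.quo hS) rfl)

include ht

theorem elem (A : Type u) [AddCommGroup A] [DistribMulAction G A] [Finite A] (h : M.Good A) :
    (∀ m : A, m + m = 0) ∧ ∀ b b' (m : A), M.nn b (M.nn b' m) = 0 := by
  induction hn : Nat.card A using Nat.strong_induction_on generalizing A with
  | _ n ih =>
  subst hn
  rcases subsingleton_or_nontrivial A with h1 | h1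
  · exact ⟨fun _ => Subsingleton.elim _ _, fun _ _ _ => Subsingleton.elim _ _⟩
  obtain ⟨S, hS, S0, Sm⟩ := exists_min_inv (G := G) (A := A)
  obtain ⟨T, hT, T0, Tm⟩ := exists_max_inv (G := G) (A := A)
  letI := subAct hS
  letI := quoAct hS
  letI := subAct hT
  letI := quoAct hT
  obtain ⟨e, he⟩ := (h.sub hS).nat (simp_sub hS S0 Sm)
  obtain ⟨e', he'⟩ := (h.quo hT).nat (simp_quo hT T0 Tm)
  obtain ⟨a1, a2⟩ := ih _ (card_sub_lt T0) T (h.sub hT) rfl
  obtain ⟨b1, b2⟩ := ih _ (card_quo_lt S0) _ (h.quo hS) rfl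
  let i : M.V →+ A := S.subtype.comp e.symm.toAddMonoidHom
  have hi : ∀ (g : G) m, i (g • m) = g • i m := fun g m => by
    obtain ⟨m, rfl⟩ := e.surjective m
    simp only [i, ← he, AddMonoidHom.comp_apply, AddEquiv.toAddMonoidHom_eq_coe, AddMonoidHom.coe_coe,
      AddEquiv.symm_apply_apply]
    rfl
  have ri : ∀ m ∈ S, ∃ x, m = i x := fun m hm => ⟨e ⟨m, hm⟩, by simp [i]⟩
  have k2 : ∀ m ∈ T, m + m = 0 := fun m hm => congrArg Subtype.val (a1 ⟨m, hm⟩)
  have kq : ∀ m ∈ T, ∀ b b', M.nn b (M.nn b' m) = 0 := fun m hm b b' =>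
    congrArg Subtype.val (a2 b b' ⟨m, hm⟩)
  by_cases hST : S ≤ T
  · let p : A →+ M.V := e'.toAddMonoidHom.comp (QuotientAddGroup.mk' T)
    have hp : ∀ m, p m = 0 ↔ m ∈ T := fun m => by simp [p]
    exact M.core ht h.2 (p := p) (i := i) (fun g m => he' g (QuotientAddGroup.mk m)) hi
      (e'.surjective.comp (QuotientAddGroup.mk'_surjective T))
      (S.subtype_injective.comp e.symm.injective) (fun x => (hp _).2 (hST (e.symm x).2))
      (fun m hm => k2 m ((hp m).1 hm)) (fun m hm => kq m ((hp m).1 hm))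
      (fun m => ri _ ((QuotientAddGroup.eq_zero_iff _).1 (b1 (QuotientAddGroup.mk m))))
      fun b b' m => ri _ ((QuotientAddGroup.eq_zero_iff _).1 (b2 b b' (QuotientAddGroup.mk m)))
  · have top : S ⊔ T = ⊤ := by_contra fun c => hST (le_sup_left.trans (Tm _ (fun g v hv => by
      obtain ⟨s, hs, t, ht, rfl⟩ := AddSubgroup.mem_sup.1 hv
      rw [smul_add]
      exact AddSubgroup.add_mem_sup (hS g s hs) (hT g t ht)) c le_sup_right).le)
    have dec : ∀ m, ∃ x, ∃ t ∈ T, m = i x + t := fun m => by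
      obtain ⟨s, hs, t, ht, rfl⟩ := AddSubgroup.mem_sup.1 (top ▸ AddSubgroup.mem_top m)
      obtain ⟨x, rfl⟩ := ri s hs
      exact ⟨x, t, ht, rfl⟩
    refine ⟨fun m => ?_, fun b b' m => ?_⟩
    · obtain ⟨x, t, ht, rfl⟩ := dec m
      rw [add_add_add_comm, ← map_add, addV_self, k2 t ht]; simp
    · obtain ⟨x, t, ht, rfl⟩ := dec m
      rw [map_add, map_add, kq t ht, ← M.nn_map hi, ← M.nn_map hi, nn_nn_V]; simp

omit ht in
theorem bil_left {B C : Type*} [AddCommGroup B] [DistribMulAction G B] [AddCommGroup C]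
    [DistribMulAction G C]
    (hV : ∀ β : M.V →+ B →+ C, (∀ (g : G) x y, β (g • x) (g • y) = g • β x y) → β = 0)
    (A : Type u) [AddCommGroup A] [DistribMulAction G A] [Finite A] (h : M.Good A) :
    ∀ β : A →+ B →+ C, (∀ (g : G) x y, β (g • x) (g • y) = g • β x y) → β = 0 := by
  refine M.devissage (fun A _ _ => ∀ β : A →+ B →+ C,
    (∀ (g : G) x y, β (g • x) (g • y) = g • β x y) → β = 0) (fun A _ _ _ β _ => ?_)
    (fun A _ _ e he β hβ => ?_) (fun A _ _ S hS h1 h2 β hβ => ?_) A h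
  · exact AddMonoidHom.ext fun x => by rw [Subsingleton.elim x 0, map_zero, map_zero]
  · have := hV (β.comp e.symm.toAddMonoidHom) fun g x y => by
      obtain ⟨x, rfl⟩ := e.surjective x
      simp [← he, hβ]
    exact AddMonoidHom.ext fun x => by simpa using DFunLike.congr_fun this (e x)
  · have k1 := h1 (β.comp S.subtype) fun g x y => hβ g x.1 y
    have k2 := h2 (QuotientAddGroup.lift S β fun x hx => DFunLike.congr_fun k1 (⟨x, hx⟩ : S))
      fun g x y => QuotientAddGroup.induction_on x fun x => hβ g x y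
    exact AddMonoidHom.ext fun x => DFunLike.congr_fun k2 (QuotientAddGroup.mk x)

theorem bil (A B C : Type u) [AddCommGroup A] [DistribMulAction G A] [Finite A] [AddCommGroup B]
    [DistribMulAction G B] [Finite B] [AddCommGroup C] [DistribMulAction G C] [Finite C]
    (hA : M.Good A) (hB : M.Good B) (hC : M.Good C) :
    ∀ β : A →+ B →+ C, (∀ (g : G) x y, β (g • x) (g • y) = g • β x y) → β = 0 := by
  have hV : ∀ β : A →+ B →+ M.V, (∀ (g : G) x y, β (g • x) (g • y) = g • β x y) → β = 0 := by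
    refine M.bil_left (fun β hβ => ?_) A hA
    have := M.bil_left (B := M.V) (C := M.V) (fun β hβ => AddMonoidHom.ext fun x =>
      AddMonoidHom.ext fun y => M.bil_eq_zero ht β hβ x y) B hB β.flip fun g x y => hβ g y x
    exact AddMonoidHom.ext fun x => AddMonoidHom.ext fun y =>
      DFunLike.congr_fun (DFunLike.congr_fun this y) x
  refine M.devissage (fun C _ _ => ∀ β : A →+ B →+ C,
    (∀ (g : G) x y, β (g • x) (g • y) = g • β x y) → β = 0) (fun C _ _ _ β _ => ?_)
    (fun C _ _ e he β hβ => ?_) (fun C _ _ S hS h1 h2 β hβ => ?_) C hC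
  · exact AddMonoidHom.ext fun x => AddMonoidHom.ext fun y => Subsingleton.elim _ _
  · have := hV (β.compr₂ e.toAddMonoidHom) fun g x y => by simp [← he, hβ]
    exact AddMonoidHom.ext fun x => AddMonoidHom.ext fun y => by
      simpa using DFunLike.congr_fun (DFunLike.congr_fun this x) y
  · have k2 := h2 (β.compr₂ (QuotientAddGroup.mk' S)) fun g x y =>
      congrArg (QuotientAddGroup.mk' S) (hβ g x y)
    have m : ∀ x y, β x y ∈ S := fun x y =>
      (QuotientAddGroup.eq_zero_iff _).1 (DFunLike.congr_fun (DFunLike.congr_fun k2 x) y)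
    have k1 := h1 (AddMonoidHom.mk' (fun x => (β x).codRestrict S (m x)) fun x x' =>
      AddMonoidHom.ext fun y => Subtype.ext (by simp)) fun g x y => Subtype.ext (hβ g x y)
    exact AddMonoidHom.ext fun x => AddMonoidHom.ext fun y =>
      congrArg Subtype.val (DFunLike.congr_fun (DFunLike.congr_fun k1 x) y)

end Model

section
variable {Γ : Type u} [Group Γ] [Finite Γ]

/-- A section centralised by the kernel is a module for the quotient. -/
theorem exists_sectionMod {π : Γ →* G} (hπ : Function.Surjective π) (K L : Subgroup Γ) [hK : K.Normal]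
    [hL : L.Normal] (hk : K ≤ π.ker) (hc : ⁅K, π.ker⁆ ≤ L) :
    ∃ (A : Type u) (_ : AddCommGroup A) (_ : DistribMulAction G A) (_ : Finite A) (r : K → A),
      Function.Surjective r ∧ (∀ x y, r (x * y) = r x + r y) ∧ (∀ x, r x = 0 ↔ x.1 ∈ L) ∧
      ∀ g x, r ⟨g * x.1 * g⁻¹, hK.conj_mem _ x.2 g⟩ = π g • r x := by
  let Q := K ⧸ L.subgroupOf K
  let ρ : Γ → Q →* Q := fun g => QuotientGroup.map _ _ (MulAut.conjNormal (H := K) g).toMonoidHom
    fun x hx => hL.conj_mem x.1 hx g
  have triv : ∀ n ∈ π.ker, ∀ x : Q, ρ n x = x := fun n hn x => QuotientGroup.induction_on x fun x => by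
    refine (QuotientGroup.eq.2 ?_).symm
    have := hc (Subgroup.commutator_mem_commutator (K.inv_mem x.2) hn)
    simpa [Subgroup.mem_subgroupOf, commutatorElement_def, mul_assoc] using this
  have mul : ∀ g g' x, ρ (g * g') x = ρ g (ρ g' x) := fun g g' x =>
    QuotientGroup.induction_on x fun x => congrArg QuotientGroup.mk (by simp)
  letI : CommGroup Q := { (inferInstance : Group Q) with
    mul_comm := fun x y => QuotientGroup.induction_on x fun x => QuotientGroup.induction_on y fun y => by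
      have := triv x.1 (hk x.2) (QuotientGroup.mk y)
      rw [← mul_inv_eq_iff_eq_mul]
      exact this }
  choose s hs using hπ
  have key : ∀ g x, ρ (s (π g)) x = ρ g x := fun g x => by
    rw [show s (π g) = (s (π g) * g⁻¹) * g by group, mul, triv _ (by simp [hs])]
  letI : DistribMulAction G (Additive Q) :=
    { smul := fun g x => Additive.ofMul (ρ (s g) x.toMul)
      one_smul := fun x => triv _ (by simp [hs]) _
      mul_smul := fun g g' x => by
        have := key (s g * s g') x.toMul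
        rw [map_mul, hs, hs, mul] at this
        exact this
      smul_zero := fun g => map_one (ρ (s g))
      smul_add := fun g x y => map_mul (ρ (s g)) _ _ }
  exact ⟨Additive Q, inferInstance, inferInstance, inferInstance,
    fun x => Additive.ofMul (QuotientGroup.mk x), QuotientGroup.mk_surjective, fun _ _ => rfl,
    fun x => QuotientGroup.eq_one_iff x, fun g x => (key g (QuotientGroup.mk x)).symm⟩

variable (M : Model F G) {π : Γ →* G} (hπ : Function.Surjective π) (h2 : IsPGroup 2 π.ker) {c : Γ}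
  (hc : π c = M.c5) (hf : ∀ n ∈ π.ker, c * n = n * c → n = 1)
include h2 hc hf

theorem good_section {K : Subgroup Γ} [hK : K.Normal] (hk : K ≤ π.ker) {A : Type u} [AddCommGroup A]
    [DistribMulAction G A] {r : K → A} (rs : Function.Surjective r) (rm : ∀ x y, r (x * y) = r x + r y)
    (rc : ∀ g x, r ⟨g * x.1 * g⁻¹, hK.conj_mem _ x.2 g⟩ = π g • r x) : M.Good A := by
  let r' : K →* Multiplicative A := MonoidHom.mk' (fun x => Multiplicative.ofAdd (r x)) rm
  refine ⟨fun v => ?_, fun v => ?_⟩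
  · obtain ⟨x, rfl⟩ := rs v
    obtain ⟨k, e⟩ := h2.to_le hk x
    exact ⟨k, by have := map_pow r' x (2 ^ k); rw [e, map_one] at this; exact this.symm⟩
  · obtain ⟨x, rfl⟩ := rs v
    obtain ⟨y, rfl⟩ := Finite.surjective_of_injective
      (f := fun y : K => (⟨c * y.1 * c⁻¹, hK.conj_mem _ y.2 c⟩ : K) * y⁻¹) (fun y z e => by
        have e' : c * y.1 * c⁻¹ * y.1⁻¹ = c * z.1 * c⁻¹ * z.1⁻¹ := congrArg Subtype.val e
        have := hf (z.1⁻¹ * y.1) (hk (K.mul_mem (K.inv_mem z.2) y.2)) (by
          calc c * (z.1⁻¹ * y.1) = c * z.1⁻¹ * c⁻¹ * (c * y.1 * c⁻¹ * y.1⁻¹) * (y.1 * c) := by group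
            _ = _ := by rw [e']; group)
        exact Subtype.ext (inv_mul_eq_one.1 this).symm) x
    have e : r y⁻¹ = -r y := map_inv r' y
    simp only [rm, rc, hc, e, smul_add, smul_neg, M.c5_five]
    abel

include hπ in
theorem martineau [Finite F] (ht : ∃ t : F, t ≠ 0 ∧ t ≠ 1) :
    ⁅π.ker, π.ker⁆ = ⊥ ∧ ∀ x ∈ π.ker, x * x = 1 := by
  set N := π.ker with hN
  have hab : ⁅N, N⁆ = ⊥ := by
    obtain ⟨A, _, _, _, r, rs, rm, r0, rc⟩ := exists_sectionMod hπ N ⁅N, N⁆ le_rfl le_rfl
    obtain ⟨C, _, _, _, t, ts, tm, t0, tc⟩ := exists_sectionMod hπ ⁅N, N⁆ ⁅⁅N, N⁆, N⁆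
      (Subgroup.commutator_le_left N N) le_rfl
    have gA := good_section M h2 hc hf le_rfl rs rm rc
    have gC := good_section M h2 hc hf (Subgroup.commutator_le_left N N) ts tm tc
    let B : N → N → C := fun x y => t ⟨⁅x.1, y.1⁆, Subgroup.commutator_mem_commutator x.2 y.2⟩
    have B1 : ∀ x x' y, B (x * x') y = B x y + B x' y := fun x x' y => by
      have := tc x.1 ⟨⁅x'.1, y.1⁆, Subgroup.commutator_mem_commutator x'.2 y.2⟩
      rw [show π x.1 = 1 from x.2, one_smul] at this
      simp only [B]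
      rw [add_comm, ← this, ← tm]
      exact congrArg t (Subtype.ext (by simp [commutatorElement_def, mul_assoc]))
    have B2 : ∀ x y y', B x (y * y') = B x y + B x y' := fun x y y' => by
      have := tc y.1 ⟨⁅x.1, y'.1⁆, Subgroup.commutator_mem_commutator x.2 y'.2⟩
      rw [show π y.1 = 1 from y.2, one_smul] at this
      simp only [B]
      rw [← this, ← tm]
      exact congrArg t (Subtype.ext (by simp [commutatorElement_def, mul_assoc]))
    have r1 : ∀ x x', r x = r x' → (x'⁻¹ * x).1 ∈ ⁅N, N⁆ := fun x x' e => (r0 _).1 (by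
      have := rm x' (x'⁻¹ * x)
      rw [mul_inv_cancel_left, e] at this
      simpa using this)
    have C1 : ∀ x x' y, r x = r x' → B x y = B x' y := fun x x' y e => by
      rw [← mul_inv_cancel_left x' x, B1, show B (x'⁻¹ * x) y = 0 from
        (t0 _).2 (Subgroup.commutator_mem_commutator (r1 _ _ e) y.2), add_zero]
    have C2 : ∀ x y y', r y = r y' → B x y = B x y' := fun x y y' e => by
      rw [← mul_inv_cancel_left y' y, B2, show B x (y'⁻¹ * y) = 0 from (t0 _).2 (by
        rw [Subgroup.commutator_comm]; exact Subgroup.commutator_mem_commutator x.2 (r1 _ _ e)),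
        add_zero]
    choose s hs using rs
    let β : A →+ A →+ C := AddMonoidHom.mk' (fun a => AddMonoidHom.mk' (fun b => B (s a) (s b))
      fun b b' => by rw [← B2]; exact C2 _ _ _ (by simp [rm, hs])) fun a a' =>
        AddMonoidHom.ext fun b => by
          change B _ _ = B _ _ + B _ _
          rw [← B1]; exact C1 _ _ _ (by simp [rm, hs])
    have hβ : ∀ x y, β (r x) (r y) = B x y := fun x y =>
      (C1 _ _ _ (hs _)).trans (C2 _ _ _ (hs _))
    have := M.bil ht A A C gA gA gC β fun g a b => by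
      obtain ⟨g, rfl⟩ := hπ g
      rw [← hs a, ← hs b, ← rc, ← rc, hβ, hβ, ← tc]
      exact congrArg t (Subtype.ext (by simp [commutatorElement_def, mul_assoc]))
    have : Fact (Nat.Prime 2) := ⟨Nat.prime_two⟩
    by_contra e
    refine (PGroup.commutator_lt (h2.to_le (Subgroup.commutator_le_left N N)) h2
      Subgroup.le_normalizer_of_normal e).not_ge (Subgroup.commutator_le.2 fun x hx y hy => ?_)
    exact (t0 ⟨⁅x, y⁆, Subgroup.commutator_mem_commutator hx hy⟩).1
      ((hβ ⟨x, hx⟩ ⟨y, hy⟩).symm.trans (by simp [*]))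
  refine ⟨hab, fun x hx => ?_⟩
  obtain ⟨A, _, _, _, r, rs, rm, r0, rc⟩ := exists_sectionMod hπ N ⊥ le_rfl hab.le
  have := (M.elem ht A (good_section M h2 hc hf le_rfl rs rm rc)).1 (r ⟨x, hx⟩)
  rw [← rm] at this
  exact Subgroup.mem_bot.1 ((r0 _).1 this)

end

end Cfsg.Lib.Sz
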