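import Cfsg.Agent.Lib.Sz.ModSimple

/-!
An abelian `2`-group acted on by `Sz(q)` with an element of order `5` fixed-point-free is elementary abelian,
and the centre of a Sylow `2`-subgroup acts quadratically.
-/

set_option autoImplicit false

namespace Cfsg.Lib.Sz

open Matrix

variable {F : Type*} [Field F] {G : Type*} [Group G]

/-- Hua's identity kills additive maps with an inversion symmetry. -/
theorem hua_eq_zero [CharP F 2] [Finite F] (τ : F →+* F) {ψ : F → F} (ha : ∀ x y, ψ (x + y) = ψ x + ψ y)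
    (h1 : ψ 1 = 0) (hi : ∀ r, r ≠ 0 → ψ r = τ r * ψ r⁻¹) (x : F) : ψ x = 0 := by
  obtain ⟨r, rfl⟩ := Finite.surjective_of_injective (frobenius F 2).injective x
  rw [frobenius_def]
  by_cases r0 : r = 0
  · have := ha 0 0
    simpa [r0] using this
  by_cases r1 : r = 1
  · simp [r1, h1]
  have r2 : 1 + r ≠ 0 := fun e => r1 (by grind)
  have e1 := hi r r0
  have e2 := hi (1 + r) r2
  have e3 := hi (r * (1 + r)) (mul_ne_zero r0 r2)
  rw [show (r * (1 + r))⁻¹ = r⁻¹ + (1 + r)⁻¹ by field_simp; grind, ha,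
    show r * (1 + r) = r + r ^ 2 by ring, ha] at e3
  rw [ha, h1, map_add, map_one] at e2
  simp only [map_add, map_pow] at e3
  grind

namespace Model

variable (M : Model F G)

theorem exists_pow_lam [Finite F] (μ : Fˣ) :
    ∃ k : ℕ, M.σ μ * μ = (M.σ μ * (μ : F) ^ 2) ^ k := by
  have := Fintype.ofFinite F
  obtain ⟨m, hm⟩ := MonoidHom.map_cyclic (Units.map (M.σ : F →* F))
  set ν : Fˣ := Units.map (M.σ : F →* F) μ * μ ^ 2
  obtain ⟨k, hk⟩ : Units.map (M.σ : F →* F) ν ∈ Submonoid.powers ν :=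
    mem_powers_iff_mem_zpowers.2 ⟨m, (hm ν).symm⟩
  obtain ⟨l, hl⟩ := M.even_card
  refine ⟨k * l, ?_⟩
  have h2 : (M.σ μ * (μ : F) ^ 2) ^ k = (M.σ μ * μ) ^ 2 := by
    have := congrArg Units.val hk
    simp only [ν, Units.val_pow_eq_pow_val, Units.val_mul, Units.coe_map, MonoidHom.coe_coe,
      map_mul, map_pow, M.σσ] at this
    rw [this]; ring
  rw [pow_mul, h2, ← pow_mul, two_mul, ← hl, Nat.card_eq_fintype_card, FiniteField.pow_card]

variable {A : Type*} [AddCommGroup A] [DistribMulAction G A]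

/-- The operator `1 + u(0,b)`. -/
noncomputable def nn (b : F) : A →+ A := AddMonoidHom.id A + DistribSMul.toAddMonoidHom A (M.u 0 b)

theorem nn_apply (b : F) (v : A) : M.nn b v = v + M.u 0 b • v := rfl

theorem nn_vec (b x y z t : F) : M.nn b (M.vec x y z t) = M.vec (b * z + M.σ b * t) (b * t) 0 0 := by
  have := M.charP
  rw [nn_apply, t_vec, vec_add, vec_inj]
  refine ⟨?_, ?_, ?_, ?_⟩ <;> grind

theorem t_t (b : F) (v : A) : M.u 0 b • M.u 0 b • v = v := by rw [← mul_smul, u_zero_sq, one_smul]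

theorem t_comm (b a c : F) (v : A) : M.u 0 b • M.u a c • v = M.u a c • M.u 0 b • v := by
  rw [← mul_smul, u_zero_comm, mul_smul]

theorem h_t (μ : Fˣ) (b : F) (v : A) :
    M.h μ • M.u 0 b • v = M.u 0 (M.σ μ * (μ : F) ^ 2 * b) • M.h μ • v := by
  rw [← mul_smul, h_mul_u, mul_smul, mul_zero]

theorem t_c5 (v : A) : M.u 0 1 • M.c5 • v = M.c5 • M.c5 • M.c5 • M.c5 • M.u 0 1 • v := by
  have h : M.c5 * (M.u 0 1 * M.c5) = M.u 0 1 := by
    rw [c5, mul_assoc, ← mul_assoc (M.u 0 1), u_zero_sq, one_mul, ← mul_assoc, w_mul_w, one_mul]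
  have h5 := M.c5_pow
  simp only [pow_succ, pow_zero, one_mul] at h5
  simp only [← mul_smul]
  congr 1
  conv_rhs => rw [← h]
  simp only [← mul_assoc, h5, one_mul]

theorem c5_five (v : A) : M.c5 • M.c5 • M.c5 • M.c5 • M.c5 • v = v := by
  have h5 := M.c5_pow
  simp only [pow_succ, pow_zero, one_mul] at h5
  simp only [← mul_smul, ← mul_assoc, h5, one_smul]

theorem free [Finite F] (h5 : M.R5 A) {S : AddSubgroup A} (hS : InvSub G S) {b : F} (hb : b ≠ 0) {v : A}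
    (hv : v ∈ S) (h2 : v + v = 0) (h : M.u 0 b • v = v) : ∃ w ∈ S, v = M.nn b w := by
  obtain ⟨μ, rfl⟩ := M.exists_nu hb
  set v' := (M.h μ)⁻¹ • v with hv'
  have e : v = M.h μ • v' := by rw [hv', smul_inv_smul]
  have h' : M.u 0 1 • v' = v' := by
    apply MulAction.injective (M.h μ)
    simp only [h_t, mul_one, ← e, h]
  refine ⟨M.h μ • (M.c5 • v' + M.c5 • M.c5 • M.c5 • v'),
    hS _ _ (S.add_mem (hS _ _ (hS _ _ hv)) (hS _ _ (hS _ _ (hS _ _ (hS _ _ hv))))), ?_⟩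
  have h3 := M.h_t μ 1 (M.c5 • v' + M.c5 • M.c5 • M.c5 • v')
  rw [mul_one] at h3
  rw [nn_apply, ← h3, ← smul_add, e]
  congr 1
  have h2' : v' + v' = 0 := by rw [hv', ← smul_add, h2, smul_zero]
  simp only [smul_add, t_c5, h', c5_five]
  linear_combination (norm := abel) h2' - h5 v'

theorem shape (Γ : M.V →+ M.V) (hu : ∀ a v, Γ (M.u a 0 • v) = M.u a 0 • Γ v)
    (h0 : ∀ x y, Γ (M.vec x y 0 0) = 0) (h1 : ∀ v, ∃ x y, Γ v = M.vec x y 0 0) :
    ∃ (Φ : F) (γ : F → F), ∀ x y z t, Γ (M.vec x y z t) = M.vec (Φ * z + γ t) (Φ * t) 0 0 := by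
  choose f1 f2 hf using h1
  have sp : ∀ x y z t, Γ (M.vec x y z t) = Γ (M.vec 0 0 z 0) + Γ (M.vec 0 0 0 t) := by
    intro x y z t
    rw [← zero_add (Γ (M.vec 0 0 z 0)), ← h0 x y]
    simp [← map_add, vec_add]
  have key : ∀ a t, Γ (M.vec 0 0 (a * t) 0) = M.vec (a * f2 (M.vec 0 0 0 t)) 0 0 0 := by
    intro a t
    have := hu a (M.vec 0 0 0 t)
    rw [u_vec, sp, hf (M.vec 0 0 0 t), u_vec] at this
    simp only [mul_zero, add_zero, zero_add] at this
    apply add_right_cancel (b := M.vec (f1 (M.vec 0 0 0 t)) (f2 (M.vec 0 0 0 t)) 0 0)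
    rw [this, vec_add]
    simp [add_comm]
  refine ⟨f2 (M.vec 0 0 0 1), fun t => f1 (M.vec 0 0 0 t), fun x y z t => ?_⟩
  have k1 := key z 1
  have k2 := key t 1
  have k3 := key 1 t
  simp only [mul_one, one_mul] at k1 k2 k3
  rw [k2, vec_inj] at k3
  rw [sp, k1, hf (M.vec 0 0 0 t), vec_add, ← k3.1]
  simp [mul_comm]

theorem exists_nn {b : F} (hb : b ≠ 0) (x y : F) : ∃ s, M.vec x y 0 0 = M.nn b s :=
  ⟨M.vec 0 0 ((x - M.σ b * (y / b)) / b) (y / b), by
    rw [nn_vec, vec_inj]; refine ⟨?_, ?_, rfl, rfl⟩ <;> field_simp; ring⟩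

theorem eq_of_t_fix {b : F} (hb : b ≠ 0) {v : M.V} (h : M.u 0 b • v = v) : ∃ x y, v = M.vec x y 0 0 := by
  obtain ⟨x, y, z, t, rfl⟩ := M.exists_vec v
  rw [t_vec, vec_inj] at h
  have ht : t = 0 := by grind
  exact ⟨x, y, M.vec_inj.2 ⟨rfl, rfl, by grind, ht⟩⟩

theorem nn_nn_V (b b' : F) (v : M.V) : M.nn b (M.nn b' v) = 0 := by
  obtain ⟨x, y, z, t, rfl⟩ := M.exists_vec v
  simp [nn_vec, vec_zero]

theorem nn_map {B : Type*} [AddCommGroup B] [DistribMulAction G B] {p : A →+ B}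
    (hp : ∀ (g : G) m, p (g • m) = g • p m) (b : F) (m : A) : p (M.nn b m) = M.nn b (p m) := by
  simp [nn_apply, hp]

theorem core [Finite F] (ht : ∃ t : F, t ≠ 0 ∧ t ≠ 1) (h5 : M.R5 A) {p : A →+ M.V} {i : M.V →+ A}
    (hp : ∀ (g : G) m, p (g • m) = g • p m) (hi : ∀ (g : G) m, i (g • m) = g • i m)
    (ps : Function.Surjective p) (ii : Function.Injective i) (pi : ∀ x, p (i x) = 0)
    (k2 : ∀ m, p m = 0 → m + m = 0) (kq : ∀ m, p m = 0 → ∀ b b', M.nn b (M.nn b' m) = 0)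
    (r2 : ∀ m, ∃ x, m + m = i x) (rq : ∀ b b' m, ∃ x, M.nn b (M.nn b' m) = i x) :
    (∀ m : A, m + m = 0) ∧ ∀ b b' (m : A), M.nn b (M.nn b' m) = 0 := by
  have := M.charP
  have lift : ∀ f : A →+ A, (∀ m, p m = 0 → f m = 0) → (∀ m, ∃ x, f m = i x) →
      ∃ f' : M.V →+ M.V, ∀ m, i (f' (p m)) = f m := by
    intro f h0 h1
    choose s hs using ps
    choose x hx using h1
    have e : ∀ m, i (x (s (p m))) = f m := fun m => by
      rw [← hx, ← sub_eq_zero, ← map_sub]; exact h0 _ (by simp [hs])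
    refine ⟨AddMonoidHom.mk' (fun v => x (s v)) fun v v' => ii ?_, e⟩
    rw [map_add, ← hx, ← hx, ← hx, ← map_add, ← sub_eq_zero, ← map_sub]
    exact h0 _ (by simp [hs])
  have neg : ∀ m, p m = 0 → -m = m := fun m hm => neg_eq_iff_add_eq_zero.2 (k2 m hm)
  have pt : ∀ (g : G) m, p m = 0 → p (g • m) = 0 := fun g m hm => by rw [hp, hm, smul_zero]
  have pn : ∀ b m, p m = 0 → p (M.nn b m) = 0 := fun b m hm => by rw [M.nn_map hp, hm, map_zero]
  obtain ⟨π, hπ⟩ := lift (AddMonoidHom.id A + AddMonoidHom.id A) k2 r2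
  replace hπ : ∀ m, i (π (p m)) = m + m := hπ
  have πe : ∀ (g : G) v, π (g • v) = g • π v := fun g v => by
    obtain ⟨m, rfl⟩ := ps v
    exact ii (by rw [← hp, hπ, hi, hπ, smul_add])
  have hΓ : ∀ b b', ∃ f' : M.V →+ M.V, ∀ m, i (f' (p m)) = M.nn b m - M.u 0 b' • M.nn b m := by
    intro b b'
    refine lift (M.nn b - (DistribSMul.toAddMonoidHom A (M.u 0 b')).comp (M.nn b)) (fun m hm => ?_)
      fun m => ?_
    · change M.nn b m - M.u 0 b' • M.nn b m = 0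
      rw [sub_eq_add_neg, neg _ (pt _ _ (pn _ _ hm))]
      exact kq m hm b' b
    · obtain ⟨x, hx⟩ := rq b' b m
      obtain ⟨y, hy⟩ := r2 (M.u 0 b' • M.nn b m)
      refine ⟨x - y, ?_⟩
      change M.nn b m - M.u 0 b' • M.nn b m = _
      rw [map_sub, ← hx, ← hy, M.nn_apply b']; abel
  choose Γ hΓ using hΓ
  have F1 : ∀ b b' v, Γ b b' v - Γ b' b v = M.u 0 b • π v - M.u 0 b' • π v := by
    intro b b' v
    obtain ⟨m, rfl⟩ := ps v
    apply ii
    simp only [map_sub, hΓ, hi, hπ, nn_apply, smul_add, M.t_comm b 0 b']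
    abel
  have F3 : ∀ b b' s s', b' ≠ 0 → M.nn b s = M.nn b' s' →
      ∃ σ, Γ b b' s = M.nn b' σ ∧ Γ b' b s' = M.nn b σ := by
    intro b b' s s' hb' h
    obtain ⟨m, rfl⟩ := ps s
    obtain ⟨m', rfl⟩ := ps s'
    set ω := M.nn b m - M.nn b' m' with hω
    have pω : p ω = 0 := by rw [hω, map_sub, M.nn_map hp, M.nn_map hp, h, sub_self]
    have e1 : i (Γ b b' (p m)) = M.nn b' ω := by
      rw [hΓ, M.nn_apply b' ω, ← neg _ (pt (M.u 0 b') _ pω), hω]
      simp only [smul_sub, M.nn_apply b', smul_add, t_t]; abel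
    have e2 : i (Γ b' b (p m')) = M.nn b ω := by
      rw [hΓ, M.nn_apply b ω]
      nth_rewrite 1 [← neg _ pω]
      rw [hω]
      simp only [smul_sub, M.nn_apply b, smul_add, t_t]; abel
    obtain ⟨x, y, hx⟩ := M.eq_of_t_fix hb' (v := Γ b b' (p m)) (ii (by
      rw [hi, e1, nn_apply, smul_add, t_t, add_comm]))
    obtain ⟨σ, hσ⟩ := M.exists_nn hb' x y
    refine ⟨σ, hx.trans hσ, ii ?_⟩
    have p' : p (ω - i σ) = 0 := by rw [map_sub, pω, pi, sub_zero]
    have f' : M.nn b' (ω - i σ) = 0 := by rw [map_sub, ← e1, hx, hσ, M.nn_map hi, sub_self]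
    obtain ⟨w, hw, e⟩ := M.free h5 (S := p.ker) (fun g v hv => pt g v hv) hb' p' (k2 _ p') (by
      rw [nn_apply, add_eq_zero_iff_neg_eq, neg _ p'] at f'; exact f'.symm)
    rw [e2, M.nn_map hi, ← sub_eq_zero, ← map_sub, e]
    exact kq w hw b b'
  have G0 : ∀ b b' x y, Γ b b' (M.vec x y 0 0) = 0 := by
    intro b b' x y
    by_cases hb : b = 0
    · obtain ⟨m, hm⟩ := ps (M.vec x y 0 0)
      apply ii
      rw [← hm, hΓ, hb, nn_apply, u_zero, one_smul, ← hπ, ← hi, ← πe, hm, t_vec]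
      simp
    obtain ⟨s, hs⟩ := M.exists_nn hb x y
    obtain ⟨m, rfl⟩ := ps s
    apply ii
    have e : M.nn b (M.nn b m) = i (M.nn b (π (p m))) := by
      rw [M.nn_map hi, hπ]; simp only [nn_apply, smul_add, t_t]; abel
    obtain ⟨x', y', z', t', e'⟩ := M.exists_vec (π (p m))
    rw [hs, ← M.nn_map hp, hΓ, e, ← hi, e', nn_vec, t_vec]
    simp
  have G1 : ∀ b b' v, ∃ x y, Γ b b' v = M.vec x y 0 0 := by
    intro b b' v
    by_cases hb : b' = 0
    · obtain ⟨m, rfl⟩ := ps v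
      exact ⟨0, 0, ii (by rw [hΓ, hb, vec_zero]; simp)⟩
    obtain ⟨x, y, z, t, rfl⟩ := M.exists_vec v
    obtain ⟨s, hs⟩ := M.exists_nn hb (b * z + M.σ b * t) (b * t)
    obtain ⟨σ, h, -⟩ := F3 b b' (M.vec x y z t) s hb (by rw [nn_vec, hs])
    obtain ⟨x', y', z', t', rfl⟩ := M.exists_vec σ
    exact ⟨_, _, h.trans (M.nn_vec ..)⟩
  have Gu : ∀ b b' a v, Γ b b' (M.u a 0 • v) = M.u a 0 • Γ b b' v := by
    intro b b' a v
    obtain ⟨m, rfl⟩ := ps v
    apply ii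
    simp only [← hp, hi, hΓ, nn_apply, smul_sub, smul_add, M.t_comm _ a 0]
  have Gh : ∀ b b' (μ : Fˣ) v, Γ (M.σ μ * (μ : F) ^ 2 * b) (M.σ μ * (μ : F) ^ 2 * b') (M.h μ • v) =
      M.h μ • Γ b b' v := by
    intro b b' μ v
    obtain ⟨m, rfl⟩ := ps v
    apply ii
    simp only [← hp, hi, hΓ, nn_apply, smul_sub, smul_add, h_t]
  choose Φ γ hs using fun b b' => M.shape (Γ b b') (Gu b b') (G0 b b') (G1 b b')
  have γ0 : ∀ b b', γ b b' 0 = 0 := fun b b' => by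
    have := hs b b' 0 0 0 0
    rw [vec_zero, map_zero, eq_comm, vec_eq_zero] at this
    simpa using this.1
  have two : ∀ m : A, m + m = 0 := by
    obtain ⟨t, t0, t1⟩ := ht
    obtain ⟨σ, h1, h2⟩ := F3 t 1 (M.vec 0 0 1 0) (M.vec 0 0 t 0) one_ne_zero (by simp [nn_vec])
    obtain ⟨x', y', z', t', rfl⟩ := M.exists_vec σ
    simp only [hs, nn_vec, vec_inj, γ0] at h1 h2
    have e := F1 t 1 (M.vec 0 0 1 0)
    rw [hs, hs, γ0, γ0, show Φ 1 t = Φ t 1 by grind, sub_self, eq_comm, sub_eq_zero] at e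
    obtain ⟨x, y, z, s, e'⟩ := M.exists_vec (π (M.vec 0 0 1 0))
    have e3 := πe (M.u 0 1) (M.vec 0 0 1 0)
    rw [e', t_vec, t_vec, vec_inj] at e
    have s0 : s = 0 := by grind
    have z0 : z = 0 := by grind
    have e4 : π.ker = ⊤ := M.top_of_mem (fun g v hv => by
      rw [AddMonoidHom.mem_ker] at hv ⊢; rw [πe, hv, smul_zero]) one_ne_zero (by
      have := map_add π (M.vec 1 0 0 0) (M.vec 0 0 1 0)
      simp only [t_vec, vec_add, e', s0, z0, mul_zero, add_zero, zero_add, mul_one] at this e3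
      rw [e3] at this
      simpa using this)
    intro m
    rw [← hπ, show π (p m) = 0 from (e4 ▸ AddSubgroup.mem_top _ : p m ∈ π.ker), map_zero]
  have neg' : ∀ m : A, -m = m := fun m => neg_eq_iff_add_eq_zero.2 (two m)
  have hΓ' : ∀ b b' m, i (Γ b b' (p m)) = M.nn b' (M.nn b m) := fun b b' m => by
    rw [hΓ, sub_eq_add_neg, neg', M.nn_apply b']
  have sym : ∀ b b' v, Γ b b' v = Γ b' b v := fun b b' v => by
    obtain ⟨m, rfl⟩ := ps v
    apply ii
    simp only [hΓ', nn_apply, smul_add, M.t_comm b 0 b']; abel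
  have alt : ∀ b v, Γ b b v = 0 := fun b v => by
    obtain ⟨m, rfl⟩ := ps v
    apply ii
    simp only [hΓ', nn_apply, smul_add, t_t, map_zero]
    linear_combination (norm := abel) two m + two (M.u 0 b • m)
  have add : ∀ b b₁ b₂ v, Γ b (b₁ + b₂) v = Γ b b₁ v + Γ b b₂ v := fun b b₁ b₂ v => by
    obtain ⟨m, rfl⟩ := ps v
    apply ii
    have e : M.nn b₁ (M.nn b₂ (M.nn b m)) = 0 := by
      obtain ⟨x, y, h⟩ := G1 b b₂ (p m)
      rw [← hΓ' b b₂, ← M.nn_map hi, h, nn_vec]; simp [vec_zero]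
    rw [map_add, hΓ', hΓ', hΓ']
    generalize M.nn b m = n at e ⊢
    simp only [nn_apply, smul_add, ← u_zero_mul_u_zero, mul_smul] at e ⊢
    linear_combination (norm := abel) e - two n - two (M.u 0 b₁ • n) - two (M.u 0 b₂ • n)
  have cΦ : ∀ b b', Γ b b' (M.vec 0 0 1 0) = M.vec (Φ b b') 0 0 0 := fun b b' => by simp [hs, γ0]
  have cγ : ∀ b b' y, Γ b b' (M.vec 0 0 0 y) = M.vec (γ b b' y) (Φ b b' * y) 0 0 := fun b b' y => by
    simp [hs]
  have hΦ : ∀ b b' (μ : Fˣ), Φ (M.σ μ * (μ : F) ^ 2 * b) (M.σ μ * (μ : F) ^ 2 * b') =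
      M.σ μ * (μ : F) ^ 2 * Φ b b' := fun b b' μ => by
    have := Gh b b' μ (M.vec 0 0 μ 0)
    simp only [h_vec, hs, vec_inj, mul_zero, γ0, add_zero] at this
    have h := this.1
    rw [inv_mul_cancel₀ μ.ne_zero] at h
    linear_combination h
  have hγ : ∀ b b' y (μ : Fˣ), γ (M.σ μ * (μ : F) ^ 2 * b) (M.σ μ * (μ : F) ^ 2 * b') y =
      M.σ μ * μ * γ b b' (M.σ μ * μ * y) := fun b b' y μ => by
    have := Gh b b' μ (M.vec 0 0 0 (M.σ μ * μ * y))
    simp only [h_vec, hs, vec_inj, mul_zero, zero_add] at this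
    have h := this.1
    rwa [inv_mul_cancel_left₀ (mul_ne_zero (M.σ_ne_zero μ.ne_zero) μ.ne_zero)] at h
  have Φ0 : ∀ r, Φ 1 r = 0 := by
    refine hua_eq_zero (RingHom.id F) (fun x y => ?_) ?_ fun r hr => ?_
    · simpa [cΦ, vec_add, vec_inj] using add 1 x y (M.vec 0 0 1 0)
    · simpa [cΦ, vec_eq_zero] using alt 1 (M.vec 0 0 1 0)
    · obtain ⟨μ, hμ⟩ := M.exists_nu hr
      have h1 := hΦ 1 r⁻¹ μ
      have h2 := sym 1 r (M.vec 0 0 1 0)
      rw [hμ, mul_one, mul_inv_cancel₀ hr] at h1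
      rw [cΦ, cΦ, vec_inj] at h2
      rw [h2.1, h1]; rfl
  have γl : ∀ r y, r ≠ 0 → γ 1 r (r * y) = r * γ 1 r y := by
    intro r y hr
    obtain ⟨σ, h1, h2⟩ := F3 1 r (M.vec 0 0 0 (r * y)) (M.vec 0 0 (y - M.σ r * y / r) y) hr (by
      simp only [nn_vec, vec_inj, map_one]
      refine ⟨?_, by ring, trivial, trivial⟩
      field_simp; ring)
    obtain ⟨x', y', z', t', rfl⟩ := M.exists_vec σ
    rw [sym r 1] at h2
    simp only [hs, nn_vec, vec_inj, Φ0, map_one] at h1 h2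
    grind
  have γz : ∀ y r, γ 1 r y = 0 := by
    intro y
    refine hua_eq_zero M.σ (fun x z => ?_) ?_ fun r hr => ?_
    · have := add 1 x z (M.vec 0 0 0 y)
      simp only [cγ, vec_add, vec_inj] at this
      exact this.1
    · have := alt 1 (M.vec 0 0 0 y)
      simp only [cγ, vec_eq_zero] at this
      exact this.1
    · obtain ⟨μ, hμ⟩ := M.exists_nu hr
      have h1 := hγ 1 r⁻¹ y μ
      have h2 := sym 1 r (M.vec 0 0 0 y)
      obtain ⟨k, hk⟩ := M.exists_pow_lam μ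
      have h3 : ∀ (k : ℕ) y, γ 1 r⁻¹ (r ^ k * y) = r ^ k * γ 1 r⁻¹ y := by
        intro k
        induction k with
        | zero => simp
        | succ k ih =>
          intro y
          have := γl r⁻¹ (r * y) (inv_ne_zero hr)
          rw [inv_mul_cancel_left₀ hr] at this
          rw [pow_succ, mul_assoc, ih, this]; field_simp
      rw [hμ, mul_one, mul_inv_cancel₀ hr] at h1
      rw [cγ, cγ, vec_inj] at h2
      rw [hμ] at hk
      rw [h2.1, h1]
      nth_rewrite 2 [hk]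
      rw [h3, ← hk, ← hμ, map_mul, map_pow, M.σσ]; ring
  refine ⟨two, fun b' b m => ?_⟩
  by_cases hb : b = 0
  · rw [hb, M.nn_apply 0, u_zero, one_smul, two, map_zero]
  obtain ⟨μ, hμ⟩ := M.exists_nu hb
  obtain ⟨x, y, z, t, e⟩ := M.exists_vec (p m)
  have h1 := hΦ 1 (b' / b) μ
  have h2 := hγ 1 (b' / b) t μ
  rw [hμ, mul_one, mul_div_cancel₀ _ hb] at h1 h2
  rw [← hΓ', e, hs, h1, h2, Φ0, γz]
  simp [vec_zero]

end Model

end Cfsg.Lib.Sz
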