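import Cfsg.Agent.Lib.Sz.ModV

/-!
A simple `𝔽₂ Sz(q)`-module on which an element of order `5` acts without fixed points is the natural module.
-/

set_option autoImplicit false

namespace Cfsg.Lib.Sz

open Matrix

section
variable {G : Type*} [Group G] {A B X : Type*} [AddCommGroup A] [DistribMulAction G A]
  [AddCommGroup B] [DistribMulAction G B] [AddCommGroup X]

theorem SimpAct.eq_zero_of_fun (hA : SimpAct G A) {φ : A →+ X} (hφ : φ ≠ 0) {s : A}
    (h : ∀ g : G, φ (g • s) = 0) : s = 0 := by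
  let S : AddSubgroup A :=
    { carrier := {s | ∀ g : G, φ (g • s) = 0}
      add_mem' := fun ha hb g => by rw [smul_add, map_add, ha, hb, add_zero]
      zero_mem' := fun g => by simp
      neg_mem' := fun ha g => by rw [smul_neg, map_neg, ha, neg_zero] }
  rcases hA.2 S (fun g v hv g' => by rw [← mul_smul]; exact hv _) with e | e
  · exact (AddSubgroup.mem_bot.1 (e ▸ h : s ∈ (⊥ : AddSubgroup A)))
  · exact absurd (AddMonoidHom.ext fun v => by
      simpa using (e ▸ AddSubgroup.mem_top v : v ∈ S) 1) hφ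

theorem SimpAct.exists_of_fun (hA : SimpAct G A) {φ : A →+ X} {ψ : B →+ X} {s₀ : A} {v₀ : B}
    (h0 : s₀ ≠ 0) (h : ∀ g : G, φ (g • s₀) = ψ (g • v₀)) (s : A) :
    ∃ v : B, ∀ g : G, φ (g • s) = ψ (g • v) := by
  let S : AddSubgroup A :=
    { carrier := {s | ∃ v : B, ∀ g : G, φ (g • s) = ψ (g • v)}
      add_mem' := fun ⟨v, ha⟩ ⟨v', hb⟩ => ⟨v + v', fun g => by simp [ha, hb]⟩
      zero_mem' := ⟨0, fun g => by simp⟩
      neg_mem' := fun ⟨v, ha⟩ => ⟨-v, fun g => by simp [ha]⟩ }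
  rcases hA.2 S (fun g v ⟨v', hv⟩ => ⟨g • v', fun g' => by simp only [← mul_smul, hv]⟩) with e | e
  · exact absurd (AddSubgroup.mem_bot.1 (e ▸ ⟨v₀, h⟩ : s₀ ∈ (⊥ : AddSubgroup A))) h0
  · exact (e ▸ AddSubgroup.mem_top s : s ∈ S)

theorem SimpAct.equiv_of_fun (hA : SimpAct G A) (hB : SimpAct G B) {φ : A →+ X} {ψ : B →+ X}
    (hφ : φ ≠ 0) (hψ : ψ ≠ 0) {s₀ : A} {v₀ : B} (h0 : s₀ ≠ 0)
    (h : ∀ g : G, φ (g • s₀) = ψ (g • v₀)) : ∃ e : A ≃+ B, ∀ (g : G) v, e (g • v) = g • e v := by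
  have h0' : v₀ ≠ 0 := by
    rintro rfl
    exact h0 (hA.eq_zero_of_fun hφ fun g => by simp [h])
  choose f hf using hA.exists_of_fun h0 h
  have inj : ∀ v v' : B, (∀ g : G, ψ (g • v) = ψ (g • v')) → v = v' := fun v v' e =>
    sub_eq_zero.1 (hB.eq_zero_of_fun hψ fun g => by rw [smul_sub, map_sub, e, sub_self])
  let f' : A →+ B := AddMonoidHom.mk' f fun a b => inj _ _ fun g => by simp [← hf]
  refine ⟨AddEquiv.ofBijective f' ⟨(injective_iff_map_eq_zero f').2 fun a ha => ?_, fun v => ?_⟩,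
    fun g v => inj _ _ fun g' => ?_⟩
  · exact hA.eq_zero_of_fun hφ fun g => by rw [hf, show f a = 0 from ha]; simp
  · obtain ⟨s, hs⟩ := hB.exists_of_fun h0' (fun g => (h g).symm) v
    exact ⟨s, inj _ _ fun g => by rw [hs]; exact (hf s g).symm⟩
  · change ψ (g' • f (g • v)) = ψ (g' • g • f v)
    rw [← hf, ← mul_smul, ← mul_smul, hf]

end

/-- A representation of the multiplicative group of a finite field over that field has an eigenvector. -/
theorem exists_units_eigen {F W : Type*} [Field F] [Finite F] [AddCommGroup W] [Module F W]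
    (ρ : Fˣ → W →ₗ[F] W) (h1 : ∀ v, ρ 1 v = v) (hm : ∀ μ ν v, ρ (μ * ν) v = ρ μ (ρ ν v)) {w : W}
    (hw : w ≠ 0) : ∃ (j : ℕ) (c : Fˣ → F), (∑ᶠ μ, c μ • ρ μ w) ≠ 0 ∧
      ∀ ν, ρ ν (∑ᶠ μ, c μ • ρ μ w) = ((ν : F) ^ j) • ∑ᶠ μ, c μ • ρ μ w := by
  classical
  have := Fintype.ofFinite F
  simp only [finsum_eq_sum_of_fintype]
  by_contra! hc
  have key : ∀ j : ℕ, ∑ μ : Fˣ, ((μ⁻¹ : Fˣ) : F) ^ j • ρ μ w = 0 := by
    intro j
    by_contra h0
    obtain ⟨ν, hν⟩ := hc j _ h0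
    apply hν
    rw [map_sum, Finset.smul_sum, ← Equiv.sum_comp (Equiv.mulLeft ν) (fun μ => _ • _ • ρ μ w)]
    refine Finset.sum_congr rfl fun μ _ => ?_
    rw [map_smul, Equiv.coe_mulLeft, hm, smul_smul, ← mul_pow]
    congr 2
    simp [mul_comm]
  have h2 : ∑ j ∈ Finset.range (Fintype.card Fˣ), ∑ μ : Fˣ, ((μ⁻¹ : Fˣ) : F) ^ j • ρ μ w = 0 := by
    simp [key, -Units.val_inv_eq_inv_val]
  rw [Finset.sum_comm, Finset.sum_eq_single 1] at h2
  · simp only [inv_one, Units.val_one, one_pow, h1, Finset.sum_const, Finset.card_range, one_smul,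
      Fintype.card_units] at h2
    rw [← Nat.cast_smul_eq_nsmul F, Nat.cast_sub Fintype.card_pos, FiniteField.cast_card_eq_zero] at h2
    simpa [hw] using h2
  · intro μ _ hμ
    rw [← Finset.sum_smul, geom_sum_eq (by simpa using hμ), ← Units.val_pow_eq_pow_val,
      pow_card_eq_one]
    simp
  · simp

variable {F : Type*} [Field F] {G : Type*} [Group G]

namespace Model

variable (M : Model F G)

/-- An element of order five. -/
noncomputable def c5 : G := M.w * M.u 0 1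

theorem c5_vec (x y z t : F) : M.c5 • M.vec x y z t = M.vec t z (y + t) (x + z + t) := by
  rw [c5, mul_smul, t_vec, w_vec]; simp

theorem ext_V {g g' : G} (h : ∀ v : M.V, g • v = g' • v) : g = g' :=
  M.mat_inj (Matrix.toLin'.injective (LinearMap.ext fun v => h v))

theorem c5_pow : M.c5 ^ 5 = 1 := by
  have := M.charP
  refine M.ext_V fun v => ?_
  obtain ⟨x, y, z, t, rfl⟩ := M.exists_vec v
  simp only [pow_succ, pow_zero, one_mul, mul_smul, c5_vec, one_smul, vec_inj]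
  refine ⟨?_, ?_, ?_, ?_⟩ <;> grind

theorem c5_ne_one : M.c5 ≠ 1 := by
  intro h
  have := M.c5_vec 1 0 0 0
  rw [h, one_smul, vec_inj] at this
  exact one_ne_zero this.1

/-- The element of order five acts without fixed points. -/
def R5 (A : Type*) [AddCommGroup A] [DistribMulAction G A] : Prop :=
  ∀ v : A, v + M.c5 • v + M.c5 • M.c5 • v + M.c5 • M.c5 • M.c5 • v +
    M.c5 • M.c5 • M.c5 • M.c5 • v = 0

/-- The last coordinate. -/
def last : M.V →+ F := AddMonoidHom.mk' (fun v => v 3) fun _ _ => rfl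

theorem last_vec (x y z t : F) : M.last (M.vec x y z t) = t := rfl

variable {A : Type*} [AddCommGroup A] [DistribMulAction G A]

theorem exists_functional [Finite F] [Finite A] [Nontrivial A] (h2 : ∀ v : A, v + v = 0) :
    ∃ (φ : A →+ F) (j : ℕ), φ ≠ 0 ∧ (∀ a b v, φ (M.u a b • v) = φ v) ∧
      ∀ (μ : Fˣ) v, φ (M.h μ • v) = (μ : F) ^ j * φ v := by
  have := M.charP
  have hfin : Finite (A →+ F) := DFunLike.finite _
  obtain ⟨φ₀, hφ₀⟩ : ∃ φ₀ : A →+ F, φ₀ ≠ 0 := by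
    letI : Module (ZMod 2) A := AddCommGroup.zmodModule (fun v => by rw [two_nsmul, h2])
    obtain ⟨v, hv⟩ := exists_ne (0 : A)
    obtain ⟨f, hf⟩ := Module.Projective.exists_dual_ne_zero (ZMod 2) hv
    refine ⟨(ZMod.castHom (dvd_refl 2) F).toAddMonoidHom.comp f.toAddMonoidHom, fun e => hf ?_⟩
    have := DFunLike.congr_fun e v
    exact (map_eq_zero_iff _ (ZMod.castHom (dvd_refl 2) F).injective).1 this
  obtain ⟨φ₁, h0, h1⟩ := M.exists_fix (X := A →+ F)
    (fun g => AddMonoidHom.compHom' (DistribSMul.toAddMonoidHom A g⁻¹))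
    (fun φ => AddMonoidHom.ext fun v => by simp) (fun g g' φ => AddMonoidHom.ext fun v => by
      simp [mul_smul]) (fun φ => AddMonoidHom.ext fun v => by simp [CharTwo.add_self_eq_zero]) hφ₀
  have h1' : ∀ a b v, φ₁ (M.u a b • v) = φ₁ v := fun a b v => by
    simpa using (DFunLike.congr_fun (h1 a b) (M.u a b • v)).symm
  let ρ : Fˣ → (A →+ F) →ₗ[F] (A →+ F) := fun μ =>
    { toFun := fun φ => φ.comp (DistribSMul.toAddMonoidHom A (M.h μ))
      map_add' := fun _ _ => rfl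
      map_smul' := fun _ _ => rfl }
  obtain ⟨j, c, hc0, hc⟩ := exists_units_eigen ρ (fun φ => AddMonoidHom.ext fun v => by simp [ρ])
    (fun μ ν φ => AddMonoidHom.ext fun v => by
      simp only [ρ, mul_comm μ ν, map_mul, LinearMap.coe_mk, AddHom.coe_mk, AddMonoidHom.comp_apply,
        DistribSMul.toAddMonoidHom_apply, mul_smul]) h0
  refine ⟨_, j, hc0, fun a b v => ?_, fun μ v => DFunLike.congr_fun (hc μ) v⟩
  have := Fintype.ofFinite Fˣ
  simp only [finsum_eq_sum_of_fintype, AddMonoidHom.finsetSum_apply]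
  refine Finset.sum_congr rfl fun μ _ => ?_
  change c μ * φ₁ (M.h μ • M.u a b • v) = c μ * φ₁ (M.h μ • v)
  rw [← mul_smul, h_mul_u, mul_smul, h1']

theorem cell {φ : A →+ F} {j : ℕ} (hu : ∀ a b v, φ (M.u a b • v) = φ v)
    (hh : ∀ (μ : Fˣ) v, φ (M.h μ • v) = (μ : F) ^ j * φ v) {s : A} (hs : ∀ a b, M.u a b • s = s)
    {P : F → F} (hP : ∀ μ : Fˣ, P (M.σ μ * μ) = (μ : F)⁻¹ ^ j) (g : G) :
    (M.last (g • M.vec 1 0 0 0) = 0 ∧ ∃ x, φ (g • s) = x * φ s) ∨
      (M.last (g • M.vec 1 0 0 0) ≠ 0 ∧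
        φ (g • s) = P (M.last (g • M.vec 1 0 0 0)) * φ (M.w • s)) := by
  rcases M.bruhat g with ⟨a, b, μ, rfl⟩ | ⟨a, b, c, d, μ, rfl⟩
  · exact Or.inl ⟨by simp [mul_smul, h_vec, u_vec, last_vec], _, by rw [mul_smul, hu, hh]⟩
  · have e : M.last ((M.u a b * M.w * (M.u c d * M.h μ)) • M.vec 1 0 0 0) = M.σ μ * μ := by
      simp [mul_smul, h_vec, u_vec, w_vec, last_vec]
    rw [e]
    refine Or.inr ⟨mul_ne_zero (M.σ_ne_zero μ.ne_zero) μ.ne_zero, ?_⟩
    have e2 : M.u c d * M.h μ = M.h μ * (M.h μ⁻¹ * M.u c d * (M.h μ⁻¹)⁻¹) := by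
      rw [map_inv]; group
    rw [e2, h_conj_u, mul_smul, mul_smul, hu, mul_smul, hs, ← mul_smul, w_mul_h, mul_smul, hh, hP]
    simp

theorem nat_of_simp [Finite F] [Finite A] (h2 : ∀ v : A, v + v = 0) (hA : SimpAct G A)
    (h5 : M.R5 A) : ∃ e : A ≃+ M.V, ∀ (g : G) v, e (g • v) = g • e v := by
  classical
  have := M.charP
  have := hA.1
  obtain ⟨φ, j, h0, hu, hh⟩ := M.exists_functional h2
  obtain ⟨v, hv⟩ := exists_ne (0 : A)
  obtain ⟨s, hs0, hs⟩ := M.exists_fix (X := A) (fun g => DistribSMul.toAddMonoidHom A g)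
    (one_smul G) mul_smul h2 hv
  change ∀ a b, M.u a b • s = s at hs
  obtain ⟨P, P0, hP⟩ : ∃ P : F → F, P 0 = 0 ∧ ∀ μ : Fˣ, P (M.σ μ * μ) = (μ : F)⁻¹ ^ j := by
    refine ⟨fun x => if h : x = 0 then 0 else ((M.exists_lam h).choose : F)⁻¹ ^ j, dif_pos rfl,
      fun μ => ?_⟩
    have h := mul_ne_zero (M.σ_ne_zero μ.ne_zero) μ.ne_zero
    simp only [dif_neg h]
    rw [M.σ_mul_self_inj (M.exists_lam h).choose_spec]
  have P1 : P 1 = 1 := by simpa using hP 1
  have Pm : ∀ x y, P (x * y) = P x * P y := by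
    intro x y
    by_cases hx : x = 0
    · simp [hx, P0]
    by_cases hy : y = 0
    · simp [hy, P0]
    obtain ⟨μ, rfl⟩ := M.exists_lam hx
    obtain ⟨ν, rfl⟩ := M.exists_lam hy
    rw [hP, hP, ← mul_pow, ← mul_inv, ← Units.val_mul, ← hP]
    congr 1
    simp only [Units.val_mul, map_mul]; ring
  have hc := M.cell hu hh hs hP
  have hα : φ s = 0 := by
    have e : ∀ g : G, M.last (g • M.vec 1 0 0 0) = 1 → φ (g • s) = φ (M.w • s) := by
      intro g hg
      rcases hc g with ⟨h, -⟩ | ⟨-, h⟩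
      · exact absurd (hg.symm.trans h) one_ne_zero
      · rw [h, hg, P1, one_mul]
    have h := congrArg φ (h5 s)
    have e1 := e M.c5 (by simp [c5_vec, last_vec])
    have e2 := e (M.c5 * M.c5) (by simp [mul_smul, c5_vec, last_vec])
    have e3 := e (M.c5 * M.c5 * M.c5) (by simp [mul_smul, c5_vec, last_vec, CharTwo.add_self_eq_zero])
    have e4 := e (M.c5 * M.c5 * M.c5 * M.c5)
      (by simp [mul_smul, c5_vec, last_vec, CharTwo.add_self_eq_zero])
    simp only [mul_smul] at e2 e3 e4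
    simp only [map_add, map_zero, e1, e2, e3, e4] at h
    grind
  have hc' : ∀ g : G, φ (g • s) = P (M.last (g • M.vec 1 0 0 0)) * φ (M.w • s) := by
    intro g
    rcases hc g with ⟨h, x, hx⟩ | ⟨-, h⟩
    · rw [hx, h, hα, P0]; simp
    · exact h
  have hβ : φ (M.w • s) ≠ 0 := fun e => hs0 (hA.eq_zero_of_fun h0 fun g => by rw [hc', e, mul_zero])
  have Pa1 : ∀ x, P (x + 1) = P x + 1 := by
    intro x
    obtain ⟨b, rfl⟩ := M.exists_σ x
    have h := congrArg φ (h5 ((M.u 0 b * M.w) • s))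
    have e : ∀ (g : G) y, M.last (g • M.vec (M.σ b) b 0 1) = y →
        φ (g • (M.u 0 b * M.w) • s) = P y * φ (M.w • s) := by
      intro g y hg
      rw [← mul_smul, hc', ← hg]
      simp [mul_smul, w_vec, t_vec]
    have e0 := e 1 1 (by simp [last_vec])
    have e1 := e M.c5 (M.σ b + 1) (by simp [c5_vec, last_vec])
    have e2 := e (M.c5 * M.c5) (M.σ b + b + 1) (by simp only [mul_smul, c5_vec, last_vec]; grind)
    have e3 := e (M.c5 * M.c5 * M.c5) (M.σ b + b + 1)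
      (by simp only [mul_smul, c5_vec, last_vec]; grind)
    have e4 := e (M.c5 * M.c5 * M.c5 * M.c5) (M.σ b)
      (by simp only [mul_smul, c5_vec, last_vec]; grind)
    simp only [mul_smul M.c5, mul_assoc, one_smul] at e0 e2 e3 e4
    simp only [map_add, map_zero, e0, e1, e2, e3, e4, P1] at h
    apply mul_right_cancel₀ hβ
    grind
  have Pa : ∀ x y, P (x + y) = P x + P y := by
    intro x y
    by_cases hy : y = 0
    · simp [hy, P0]
    rw [show x + y = (x / y + 1) * y by field_simp, Pm, Pa1, add_mul, ← Pm, div_mul_cancel₀ _ hy,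
      one_mul]
  let R : F →+* F := ⟨⟨⟨P, P1⟩, Pm⟩, P0, Pa⟩
  obtain ⟨β, hβ'⟩ := Finite.surjective_of_injective R.injective (φ (M.w • s))
  refine hA.equiv_of_fun M.simp_V (ψ := R.toAddMonoidHom.comp M.last) h0 ?_ hs0
    (v₀ := M.vec β 0 0 0) fun g => ?_
  · intro e
    have := DFunLike.congr_fun e (M.vec 0 0 0 1)
    simp [last_vec] at this
  · rw [hc', ← hβ']
    change R _ * R _ = R _
    rw [← map_mul]
    congr 1
    change (M.mat g *ᵥ ![1, 0, 0, 0]) 3 * β = (M.mat g *ᵥ ![β, 0, 0, 0]) 3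
    simp [Matrix.mulVec, dotProduct, Fin.sum_univ_four]

end Model

end Cfsg.Lib.Sz
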