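import Cfsg.Agent.Lib.Sz.Borel

/-!
The natural module of a Suzuki group as an additive group with operators; invariant trilinear forms vanish.
-/

set_option autoImplicit false

namespace Cfsg.Lib.Sz

open Matrix

/-- An invariant additive subgroup. -/
def InvSub (G : Type*) [Group G] {A : Type*} [AddCommGroup A] [DistribMulAction G A]
    (S : AddSubgroup A) : Prop := ∀ g : G, ∀ v ∈ S, g • v ∈ S

/-- A simple additive group with operators. -/
def SimpAct (G : Type*) [Group G] (A : Type*) [AddCommGroup A] [DistribMulAction G A] : Prop :=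
  Nontrivial A ∧ ∀ S : AddSubgroup A, InvSub G S → S = ⊥ ∨ S = ⊤

/-- The action on an invariant subgroup. -/
@[reducible] def subAct {G : Type*} [Group G] {A : Type*} [AddCommGroup A] [DistribMulAction G A]
    {S : AddSubgroup A} (hS : InvSub G S) : DistribMulAction G S where
  smul g v := ⟨g • v.1, hS g _ v.2⟩
  one_smul v := Subtype.ext (one_smul G v.1)
  mul_smul g g' v := Subtype.ext (mul_smul g g' v.1)
  smul_zero g := Subtype.ext (smul_zero g)
  smul_add g v v' := Subtype.ext (smul_add g v.1 v'.1)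

/-- The action on the quotient by an invariant subgroup. -/
@[reducible] def quoAct {G : Type*} [Group G] {A : Type*} [AddCommGroup A] [DistribMulAction G A]
    {S : AddSubgroup A} (hS : InvSub G S) : DistribMulAction G (A ⧸ S) where
  smul g := QuotientAddGroup.map S S (DistribSMul.toAddMonoidHom A g) fun v hv => hS g v hv
  one_smul v := QuotientAddGroup.induction_on v fun v =>
    congrArg QuotientAddGroup.mk (one_smul G v)
  mul_smul g g' v := QuotientAddGroup.induction_on v fun v =>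
    congrArg QuotientAddGroup.mk (mul_smul g g' v)
  smul_zero _ := map_zero (QuotientAddGroup.map S S _ _)
  smul_add _ := map_add (QuotientAddGroup.map S S _ _)

variable {F : Type*} [Field F] {G : Type*} [Group G]

namespace Model

variable (M : Model F G)

/-- The natural module. -/
def V (_ : Model F G) : Type _ := Fin 4 → F

instance instAddCommGroupV : AddCommGroup M.V := inferInstanceAs (AddCommGroup (Fin 4 → F))

instance instFiniteV [Finite F] : Finite M.V := inferInstanceAs (Finite (Fin 4 → F))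

instance instActV : DistribMulAction G M.V where
  smul g v := M.mat g *ᵥ v
  one_smul (v : Fin 4 → F) := by
    change M.mat 1 *ᵥ v = v
    rw [map_one, one_mulVec]
  mul_smul g g' (v : Fin 4 → F) := by
    change M.mat (g * g') *ᵥ v = M.mat g *ᵥ (M.mat g' *ᵥ v)
    rw [map_mul, mulVec_mulVec]
  smul_zero g := mulVec_zero _
  smul_add g v v' := mulVec_add _ _ _

/-- A vector by its coordinates. -/
def vec (x y z t : F) : M.V := ![x, y, z, t]

theorem smulV_def (g : G) (v : M.V) : g • v = M.mat g *ᵥ v := rfl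

theorem exists_vec (v : M.V) : ∃ x y z t, v = M.vec x y z t :=
  ⟨v 0, v 1, v 2, v 3, by funext i; fin_cases i <;> rfl⟩

theorem vec_inj {x y z t x' y' z' t' : F} :
    M.vec x y z t = M.vec x' y' z' t' ↔ x = x' ∧ y = y' ∧ z = z' ∧ t = t' := vec4_ext

theorem vec_add (x y z t x' y' z' t' : F) :
    M.vec x y z t + M.vec x' y' z' t' = M.vec (x + x') (y + y') (z + z') (t + t') := by
  funext i; fin_cases i <;> rfl

theorem vec_zero : M.vec 0 0 0 0 = 0 := by funext i; fin_cases i <;> rfl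

theorem vec_eq_zero {x y z t : F} : M.vec x y z t = 0 ↔ x = 0 ∧ y = 0 ∧ z = 0 ∧ t = 0 := by
  rw [← M.vec_zero, vec_inj]

theorem addV_self (v : M.V) : v + v = 0 := by
  have := M.charP
  obtain ⟨x, y, z, t, rfl⟩ := M.exists_vec v
  simp [vec_add, vec_eq_zero, CharTwo.add_self_eq_zero]

theorem u_vec (a b x y z t : F) : M.u a b • M.vec x y z t =
    M.vec (x + a * y + (b + M.σ a * a) * z + M.f a b * t) (y + M.σ a * z + b * t) (z + a * t) t := by
  rw [smulV_def, mat_u]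
  simp only [vec, Tits.uM, mulVec_fin_four]
  simp
  rfl

theorem t_vec (b x y z t : F) : M.u 0 b • M.vec x y z t =
    M.vec (x + b * z + M.σ b * t) (y + b * t) z t := by
  rw [u_vec]; simp [Tits.f]

theorem h_vec (μ : Fˣ) (x y z t : F) : M.h μ • M.vec x y z t =
    M.vec (M.σ μ * μ * x) (μ * y) ((μ : F)⁻¹ * z) ((M.σ μ * μ)⁻¹ * t) := by
  rw [smulV_def, mat_h]
  simp only [vec, Tits.hM, mulVec_fin_four]
  simp
  rfl

theorem w_vec (x y z t : F) : M.w • M.vec x y z t = M.vec t z y x := by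
  rw [smulV_def, mat_w]
  simp only [vec, wM, mulVec_fin_four]
  simp
  rfl

theorem exists_lam [Finite F] {x : F} (hx : x ≠ 0) : ∃ μ : Fˣ, M.σ μ * μ = x := by
  obtain ⟨μ, hμ⟩ := Finite.surjective_of_injective
    (f := fun y : F => M.σ y * y) (fun _ _ h => M.σ_mul_self_inj h) x
  have h0 : μ ≠ 0 := by rintro rfl; exact hx (by simpa using hμ.symm)
  exact ⟨Units.mk0 μ h0, hμ⟩

theorem exists_nu [Finite F] {x : F} (hx : x ≠ 0) : ∃ μ : Fˣ, M.σ μ * (μ : F) ^ 2 = x := by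
  obtain ⟨μ, hμ⟩ := Finite.surjective_of_injective
    (f := fun y : F => M.σ y * y ^ 2) (fun _ _ h => M.σ_mul_sq_inj h) x
  have h0 : μ ≠ 0 := by rintro rfl; exact hx (by simpa using hμ.symm)
  exact ⟨Units.mk0 μ h0, hμ⟩

theorem exists_σ [Finite F] (x : F) : ∃ y, M.σ y = x :=
  Finite.surjective_of_injective M.σ_inj x

/-- A nonzero `U`-invariant subgroup of a `2`-group contains a nonzero `U`-fixed vector. -/
theorem exists_fix [Finite F] {X : Type*} [AddCommGroup X] [Finite X] (ρ : G → X →+ X)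
    (h1 : ∀ v, ρ 1 v = v) (hm : ∀ g g' v, ρ (g * g') v = ρ g (ρ g' v)) (h2 : ∀ v : X, v + v = 0)
    {v : X} (hv : v ≠ 0) : ∃ s : X, s ≠ 0 ∧ ∀ a b, ρ (M.u a b) s = s := by
  letI : MulAction M.U X :=
    { smul := fun g v => ρ g v, one_smul := h1, mul_smul := fun g g' v => hm g g' v }
  have hd : 2 ∣ Nat.card X := by
    have : addOrderOf v = 2 := addOrderOf_eq_prime (by rw [two_nsmul, h2]) hv
    rw [← this]; exact addOrderOf_dvd_natCard v
  obtain ⟨s, hs, hs0⟩ := M.isPGroup_U.exists_fixed_point_of_prime_dvd_card_of_fixed_point X hd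
    (a := 0) (fun g => map_zero (ρ g))
  exact ⟨s, hs0.symm, fun a b => hs ⟨_, M.u_mem_U a b⟩⟩

theorem top_of_mem [Finite F] {S : AddSubgroup M.V} (hS : InvSub G S) {x : F} (hx : x ≠ 0)
    (h : M.vec x 0 0 0 ∈ S) : S = ⊤ := by
  have := M.charP
  have h0 : ∀ y, M.vec y 0 0 0 ∈ S := by
    intro y
    by_cases hy : y = 0
    · rw [hy, vec_zero]; exact S.zero_mem
    obtain ⟨μ, hμ⟩ := M.exists_lam (div_ne_zero hy hx)
    have := hS (M.h μ) _ h
    rw [h_vec, hμ] at this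
    simpa [hx] using this
  have h3 : ∀ y, M.vec 0 0 0 y ∈ S := fun y => by simpa [w_vec] using hS M.w _ (h0 y)
  have h1 : ∀ y, M.vec 0 y 0 0 ∈ S := fun y => by
    have := S.add_mem (S.add_mem (hS (M.u 0 y) _ (h3 1)) (h3 1)) (h0 (M.σ y))
    simpa [t_vec, vec_add, CharTwo.add_self_eq_zero] using this
  have h2 : ∀ y, M.vec 0 0 y 0 ∈ S := fun y => by simpa [w_vec] using hS M.w _ (h1 y)
  refine eq_top_iff.2 fun v _ => ?_
  obtain ⟨x, y, z, t, rfl⟩ := M.exists_vec v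
  simpa [vec_add] using S.add_mem (S.add_mem (S.add_mem (h0 x) (h1 y)) (h2 z)) (h3 t)

theorem eq_of_fix {v : M.V} (h : ∀ a b, M.u a b • v = v) : ∃ x, v = M.vec x 0 0 0 := by
  obtain ⟨x, y, z, t, rfl⟩ := M.exists_vec v
  have h1 := h 1 0
  have h2 := h 0 1
  rw [u_vec, vec_inj] at h1 h2
  simp only [Tits.f, map_one, map_zero] at h1 h2
  refine ⟨x, M.vec_inj.2 ⟨rfl, ?_, ?_, ?_⟩⟩ <;> grind

theorem simp_V [Finite F] : SimpAct G M.V := by
  refine ⟨⟨M.vec 1 0 0 0, 0, by simp [vec_eq_zero]⟩, fun S hS => ?_⟩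
  by_cases h : S = ⊥
  · exact Or.inl h
  obtain ⟨⟨v, hv⟩, hv0⟩ := AddSubgroup.ne_bot_iff_exists_ne_zero.1 h
  letI := subAct hS
  obtain ⟨s, hs0, hs⟩ := M.exists_fix (X := S) (fun g => DistribSMul.toAddMonoidHom S g)
    (one_smul G) mul_smul (fun v => Subtype.ext (M.addV_self v.1)) hv0
  obtain ⟨x, hx⟩ := M.eq_of_fix (v := s.1) fun a b => congrArg Subtype.val (hs a b)
  refine Or.inr (M.top_of_mem hS (x := x) ?_ (hx ▸ s.2))
  rintro rfl
  exact hs0 (Subtype.ext (by rw [hx, vec_zero]; rfl))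

/-- An invariant triadditive form on the natural module. -/
structure Tri (T : M.V → M.V → M.V → F) : Prop where
  add1 : ∀ x x' y z, T (x + x') y z = T x y z + T x' y z
  add2 : ∀ x y y' z, T x (y + y') z = T x y z + T x y' z
  add3 : ∀ x y z z', T x y (z + z') = T x y z + T x y z'
  inv : ∀ (g : G) x y z, T (g • x) (g • y) (g • z) = T x y z

namespace Tri

variable {M} {T : M.V → M.V → M.V → F} (h : M.Tri T)
include h

theorem s12 : M.Tri fun x y z => T y x z :=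
  ⟨fun _ _ _ _ => h.add2 .., fun _ _ _ _ => h.add1 .., fun _ _ _ _ => h.add3 .., fun _ _ _ _ => h.inv ..⟩

theorem s23 : M.Tri fun x y z => T x z y :=
  ⟨fun _ _ _ _ => h.add1 .., fun _ _ _ _ => h.add3 .., fun _ _ _ _ => h.add2 .., fun _ _ _ _ => h.inv ..⟩

theorem zero1 (y z : M.V) : T 0 y z = 0 := by simpa using h.add1 0 0 y z

theorem sp2 (x z : M.V) (a b c d : F) : T x (M.vec a b c d) z = T x (M.vec a 0 0 0) z +
    T x (M.vec 0 b 0 0) z + T x (M.vec 0 0 c 0) z + T x (M.vec 0 0 0 d) z := by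
  simp [← h.add2, vec_add]

theorem sp3 (x y : M.V) (a b c d : F) : T x y (M.vec a b c d) = T x y (M.vec a 0 0 0) +
    T x y (M.vec 0 b 0 0) + T x y (M.vec 0 0 c 0) + T x y (M.vec 0 0 0 d) := h.s23.sp2 ..

theorem zero2 (x z : M.V) : T x (M.vec 0 0 0 0) z = 0 := by rw [vec_zero]; exact h.s12.zero1 ..

theorem zero3 (x y : M.V) : T x y (M.vec 0 0 0 0) = 0 := h.s23.zero2 ..

theorem fixA (a b c d e f : F) : T (M.vec a b 0 0) (M.vec c d 0 0) (M.vec e f 0 0) = 0 := by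
  have := M.charP
  have h1 := h.inv (M.u 0 1) (M.vec a b 0 0) (M.vec c d 0 0) (M.vec 0 0 (e + f) f)
  have h2 := h.add3 (M.vec a b 0 0) (M.vec c d 0 0) (M.vec 0 0 (e + f) f) (M.vec e f 0 0)
  simp only [t_vec, vec_add, mul_zero, add_zero, zero_add, one_mul, map_one,
    CharTwo.add_cancel_right] at h1 h2
  rw [h1] at h2
  simpa using h2

theorem z002 (a c z : F) : T (M.vec a 0 0 0) (M.vec c 0 0 0) (M.vec 0 0 z 0) = 0 := by
  have h1 := h.inv (M.u z 0) (M.vec a 0 0 0) (M.vec c 0 0 0) (M.vec 0 0 0 1)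
  simp only [u_vec, mul_zero, add_zero, zero_add, mul_one] at h1
  rw [h.sp3, h.fixA, h.fixA] at h1
  simpa using h1

theorem pq (ξ a c z : F) : T (M.vec ξ 0 0 0) (M.vec 0 c 0 0) (M.vec 0 0 (a * z) 0) =
    T (M.vec ξ 0 0 0) (M.vec (a * c) 0 0 0) (M.vec 0 0 0 z) := by
  have := M.charP
  have h1 := h.inv (M.u a 0) (M.vec ξ 0 0 0) (M.vec 0 c 0 0) (M.vec 0 0 0 z)
  simp only [u_vec, mul_zero, add_zero, zero_add, zero_mul] at h1
  rw [h.sp3, h.fixA, h.fixA, h.sp2, h.sp2 _ (M.vec 0 0 0 z), h.z002] at h1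
  simp only [h.zero2] at h1
  grind

theorem q1 (ξ x z : F) : T (M.vec ξ 0 0 0) (M.vec x 0 0 0) (M.vec 0 0 0 z) =
    T (M.vec ξ 0 0 0) (M.vec (x * z) 0 0 0) (M.vec 0 0 0 1) := by
  have h1 := h.pq ξ x 1 z
  have h2 := h.pq ξ (x * z) 1 1
  simp only [mul_one] at h1 h2
  rw [← h1, h2]

variable (ht : ∃ t : F, t ≠ 0 ∧ t ≠ 1)
include ht

theorem z003 (ξ x z : F) : T (M.vec ξ 0 0 0) (M.vec x 0 0 0) (M.vec 0 0 0 z) = 0 := by
  have := M.charP
  have e : ∀ ξ x z, T (M.vec ξ 0 0 0) (M.vec x 0 0 0) (M.vec 0 0 0 z) =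
      T (M.vec (ξ * x * z) 0 0 0) (M.vec 1 0 0 0) (M.vec 0 0 0 1) := by
    intro ξ x z
    have h1 := h.q1 ξ 1 (x * z)
    have h2 := h.s12.q1 1 ξ (x * z)
    simp only [one_mul] at h1 h2
    rw [h.q1, ← h1, h2, mul_assoc]
  obtain ⟨t, t0, t1⟩ := ht
  have l1 : M.σ t * t + 1 ≠ 0 := fun e => t1 (M.σ_mul_self_eq_one (by grind))
  have l0 : M.σ t * t ≠ 0 := mul_ne_zero (M.σ_ne_zero t0) t0
  rw [e]
  set s := ξ * x * z / (M.σ t * t + 1)
  have h1 := h.inv (M.h (Units.mk0 t t0)) (M.vec s 0 0 0) (M.vec 1 0 0 0) (M.vec 0 0 0 1)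
  simp only [h_vec, mul_zero, Units.val_mk0] at h1
  rw [e] at h1
  have h2 := h.add1 (M.vec (M.σ t * t * s) 0 0 0) (M.vec s 0 0 0) (M.vec 1 0 0 0) (M.vec 0 0 0 1)
  rw [vec_add, show M.σ t * t * s + s = ξ * x * z by simp only [s]; field_simp] at h2
  rw [show M.σ t * t * s * (M.σ t * t * 1) * ((M.σ t * t)⁻¹ * 1) = M.σ t * t * s by field_simp] at h1
  simp only [add_zero] at h2
  rw [h2, h1, CharTwo.add_self_eq_zero]

theorem rr (ξ b y z : F) : T (M.vec ξ 0 0 0) (M.vec 0 (b * y) 0 0) (M.vec 0 0 0 z) =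
    T (M.vec ξ 0 0 0) (M.vec 0 0 0 y) (M.vec 0 (b * z) 0 0) := by
  have := M.charP
  have h1 := h.inv (M.u 0 b) (M.vec ξ 0 0 0) (M.vec 0 0 0 y) (M.vec 0 0 0 z)
  simp only [t_vec, mul_zero, add_zero, zero_add] at h1
  rw [h.sp3, h.sp2, h.sp2 _ (M.vec 0 _ 0 0), h.sp2 _ (M.vec 0 0 0 z)] at h1
  simp only [h.zero2, h.zero3, h.fixA, h.z003 ht, h.s23.z003 ht ξ _ y] at h1
  grind

theorem z013 [Finite F] (ξ c z : F) : T (M.vec ξ 0 0 0) (M.vec 0 c 0 0) (M.vec 0 0 0 z) = 0 := by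
  have := M.charP
  have e : ∀ ξ c z, T (M.vec ξ 0 0 0) (M.vec 0 c 0 0) (M.vec 0 0 0 z) =
      T (M.vec ξ 0 0 0) (M.vec 0 (c * z) 0 0) (M.vec 0 0 0 1) := by
    intro ξ c z
    have h1 := h.rr ht ξ c 1 z
    have h2 := h.rr ht ξ (c * z) 1 1
    simp only [mul_one] at h1 h2
    rw [h1, h2]
  have e2 : ∀ (μ : Fˣ) v, T (M.vec (M.σ μ * μ) 0 0 0) (M.vec 0 v 0 0) (M.vec 0 0 0 1) =
      T (M.vec 1 0 0 0) (M.vec 0 (M.σ μ * v) 0 0) (M.vec 0 0 0 1) := by
    intro μ v
    have h1 := h.inv (M.h μ) (M.vec 1 0 0 0) (M.vec 0 (M.σ μ * v) 0 0) (M.vec 0 0 0 1)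
    simp only [h_vec, mul_zero, mul_one] at h1
    have := M.σ_ne_zero μ.ne_zero
    rw [← h1, e _ _ _⁻¹]
    congr 3
    field_simp
  have e3 : ∀ v, T (M.vec 1 0 0 0) (M.vec 0 v 0 0) (M.vec 0 0 0 1) = 0 := by
    intro v
    obtain ⟨t, t0, t1⟩ := ht
    have l1 : M.σ t * t + 1 ≠ 0 := fun e => t1 (M.σ_mul_self_eq_one (by grind))
    obtain ⟨μ, hμ⟩ := M.exists_lam l1
    have l2 : M.σ μ + M.σ t + 1 ≠ 0 := by
      intro e
      have : (μ : F) = t + 1 := M.σ_inj (by rw [map_add, map_one]; grind)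
      rw [this, map_add, map_one] at hμ
      rcases M.σ_eq_self (x := t) (by grind) with h | h
      · exact t0 h
      · exact t1 h
    set s := v / (M.σ μ + M.σ t + 1)
    have h1 := e2 μ s
    have h2 := e2 (Units.mk0 t t0) s
    have h3 := h.add1 (M.vec (M.σ t * t) 0 0 0) (M.vec 1 0 0 0) (M.vec 0 s 0 0) (M.vec 0 0 0 1)
    simp only [Units.val_mk0, vec_add, add_zero] at h2 h3
    rw [← hμ, h1, h2, ← h.add2, vec_add] at h3
    have h4 := h.add2 (M.vec 1 0 0 0) (M.vec 0 (M.σ μ * s) 0 0) (M.vec 0 (M.σ t * s + s) 0 0)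
      (M.vec 0 0 0 1)
    rw [vec_add, show M.σ μ * s + (M.σ t * s + s) = v by simp only [s]; field_simp; ring] at h4
    simp only [add_zero] at h3 h4
    rw [h4, h3, CharTwo.add_self_eq_zero]
  by_cases hξ : ξ = 0
  · rw [hξ, vec_zero, h.zero1]
  obtain ⟨μ, rfl⟩ := M.exists_lam hξ
  rw [e, e2, e3]

theorem eq_zero [Finite F] (x y z : M.V) : T x y z = 0 := by
  have := M.charP
  have a0 : ∀ ξ y z, T (M.vec ξ 0 0 0) (M.vec y 0 0 0) z = 0 := by
    intro ξ y z
    obtain ⟨a, b, c, d, rfl⟩ := M.exists_vec z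
    simp [h.sp3 _ _ a b c d, h.fixA, h.z002, h.z003 ht]
  have a3 : ∀ ξ y z, T (M.vec ξ 0 0 0) (M.vec 0 0 0 y) z = 0 := by
    intro ξ y z
    obtain ⟨a, b, c, d, rfl⟩ := M.exists_vec z
    have h1 := h.inv M.w (M.vec ξ 0 0 0) (M.vec 0 0 0 y) (M.vec 0 0 c 0)
    have h2 := h.inv M.w (M.vec ξ 0 0 0) (M.vec 0 0 0 y) (M.vec 0 0 0 d)
    simp only [w_vec] at h1 h2
    rw [h.sp3, ← h1, ← h2, h.s23.z003 ht ξ a y, h.s23.z013 ht ξ b y, h.s12.s23.z013 ht y c ξ,
      h.s12.s23.z003 ht y d ξ]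
    simp
  have au : ∀ ξ a b z, T (M.vec ξ 0 0 0) (M.vec 0 b a 0) z = 0 := by
    intro ξ a b z
    have h1 := h.inv (M.u a b) (M.vec ξ 0 0 0) (M.vec 0 0 0 1) ((M.u a b)⁻¹ • z)
    simp only [u_vec, smul_inv_smul, mul_zero, add_zero, zero_add, mul_one] at h1
    rw [a3, h.sp2, a0, a3] at h1
    rw [h.sp2, a0, h1]
  let S : AddSubgroup M.V :=
    { carrier := {x | ∀ y z, T x y z = 0}
      add_mem' := fun ha hb y z => by rw [h.add1, ha, hb, add_zero]
      zero_mem' := h.zero1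
      neg_mem' := fun {x} ha y z => by
        rw [neg_eq_iff_add_eq_zero.2 (M.addV_self x)]; exact ha y z }
  have hS : InvSub G S := fun g x hx y z => by
    rw [← smul_inv_smul g y, ← smul_inv_smul g z, h.inv]; exact hx _ _
  have : S = ⊤ := M.top_of_mem hS one_ne_zero fun y z => by
    obtain ⟨a, b, c, d, rfl⟩ := M.exists_vec y
    have h1 := au 1 0 b z
    have h2 := au 1 c 0 z
    rw [h.sp2, a0, a3, h1, h2]; simp
  exact (this ▸ AddSubgroup.mem_top x : x ∈ S) y z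

end Tri

/-- There is no nonzero equivariant biadditive map on the natural module. -/
theorem bil_eq_zero [Finite F] (ht : ∃ t : F, t ≠ 0 ∧ t ≠ 1) (β : M.V →+ M.V →+ M.V)
    (hβ : ∀ (g : G) x y, β (g • x) (g • y) = g • β x y) (x y : M.V) : β x y = 0 := by
  have hT : M.Tri fun x y z => Lie.altForm4 (β x y) z := by
    refine ⟨fun x x' y z => ?_, fun x y y' z => ?_, fun x y z z' => ?_, fun g x y z => ?_⟩
    · rw [map_add, AddMonoidHom.add_apply]; simp only [Lie.altForm4]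
      erw [Pi.add_apply, Pi.add_apply, Pi.add_apply, Pi.add_apply]; ring
    · rw [map_add]; simp only [Lie.altForm4]
      erw [Pi.add_apply, Pi.add_apply, Pi.add_apply, Pi.add_apply]; ring
    · simp only [Lie.altForm4]
      erw [Pi.add_apply, Pi.add_apply, Pi.add_apply, Pi.add_apply]; ring
    · rw [hβ]; exact (isSp_iff_form _).1 (M.isSz_mat g).1 _ _
  have h := hT.eq_zero ht x y
  obtain ⟨a, b, c, d, e⟩ := M.exists_vec (β x y)
  have h0 := h (M.vec 1 0 0 0)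
  have h1 := h (M.vec 0 1 0 0)
  have h2 := h (M.vec 0 0 1 0)
  have h3 := h (M.vec 0 0 0 1)
  rw [e] at h0 h1 h2 h3 ⊢
  simp [Lie.altForm4, vec] at h0 h1 h2 h3
  simp [vec_eq_zero, h0, h1, h2, h3]

end Model

end Cfsg.Lib.Sz
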